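import Cfsg.Agent.L43.Defs
import Cfsg.Agent.H50.L4Mod
import Cfsg.Agent.H9.SLBasic
import Mathlib.GroupTheory.Sylow

/-! The subgroup `L₄(3)`: passage to the projective group, subgroups of index two. -/

set_option autoImplicit false

namespace Cfsg.Agent.L43

open Subgroup L4Q

variable {G : Type*} [Group G] {f : S4 →* G} {φ : P →* G}

theorem scal_iff {g : S4} : (∃ c : F, g.1 = c • (1 : Matrix (Fin 4) (Fin 4) F)) ↔ g.1 = 1 ∨ g.1 = -1 := by
  refine ⟨fun ⟨c, e⟩ => ?_, fun e => e.elim (fun e => ⟨1, by rw [e, one_smul]⟩) fun e => ⟨-1, by rw [e, neg_one_smul]⟩⟩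
  have := g.2
  rw [e, Matrix.det_smul, Matrix.det_one] at this
  rcases (by decide : ∀ c : F, c = 0 ∨ c = 1 ∨ c = -1) c with rfl | rfl | rfl
  · simp at this
  · exact Or.inl (by rw [e, one_smul])
  · exact Or.inr (by rw [e, neg_one_smul])

theorem Lb.exists_bar (h : Lb f) : ∃ f' : P4 F →* G, Function.Injective f' ∧ ∀ g, f' (pr4 g) = f g :=
  ⟨QuotientGroup.lift _ f fun g hg => (h.ker g).2 (scal_iff.1 (pr4_eq_one.1 ((QuotientGroup.eq_one_iff g).2 hg))),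
    (injective_iff_map_eq_one _).2 fun g e => by
      obtain ⟨g, rfl⟩ := QuotientGroup.mk'_surjective _ g
      exact pr4_eq_one.2 (scal_iff.2 ((h.ker g).1 e)), fun _ => rfl⟩

theorem Lb.eq_iff (h : Lb f) {a b : S4} : f a = f b ↔ a.1 = b.1 ∨ a.1 = -b.1 := by
  rw [← mul_inv_eq_one, ← map_inv, ← map_mul, h.ker]
  have e : a.1 = (a * b⁻¹).1 * b.1 := by rw [← val_mul4, inv_mul_cancel_right]
  have e' : (b * b⁻¹).1 = 1 := by rw [mul_inv_cancel]; rfl
  exact or_congr ⟨fun k => by rw [e, k, one_mul], fun k => by rw [val_mul4, k, ← val_mul4, e']⟩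
    ⟨fun k => by rw [e, k, neg_one_mul], fun k => by rw [val_mul4, k, neg_mul, ← val_mul4, e']⟩

theorem Lb.t1_eq (h : Lb f) : f (blk4 (ii false (-1))) = f t1 := h.eq_iff.2 (Or.inr (by decide +kernel))

/-- the centraliser of `f t1` in `L` -/
theorem Lb.cent_L (h : Lb f) (g : S4) (hg : f g * f t1 = f t1 * f g) :
    ∃ x, f g = f (blk4 x) ∨ f g = f (blk4 x) * f (w4 F) := by
  obtain ⟨f', inj, e⟩ := h.exists_bar
  obtain ⟨x, hx⟩ := (cen4 (F := F) (by decide)).cent (pr4 g) (inj (by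
    rw [map_mul, map_mul, Ψ4_apply, e, e, h.t1_eq, hg]))
  exact ⟨x, hx.imp (fun k => by rw [← e, k, Ψ4_apply, e]) fun k => by rw [← e, k, map_mul, Ψ4_apply, e, e]⟩

theorem Lb.cen4 (h : Lb f) (hc : ∀ g, g * f t1 = f t1 * g → g ∈ f.range) :
    Cen (f t1) (f (w4 F)) (f.comp blk4) := by
  obtain ⟨f', inj, e⟩ := h.exists_bar
  have c := L4Q.cen4 (F := F) (by decide)
  refine ⟨c.two, fun x => ?_, h.t1_eq, by rw [← map_mul, w4_sq, map_one], fun x => ?_, fun x k => c.ne x (inj ?_),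
    fun g hg => ?_⟩
  · rw [← c.ker, ← inj.eq_iff, map_one, Ψ4_apply, e]; rfl
  · simp only [MonoidHom.comp_apply, ← map_mul, w4_blk]
  · rw [Ψ4_apply, e, e]; exact k
  · obtain ⟨g, rfl⟩ := hc g hg
    exact h.cent_L g hg

/-- the subgroup `Q` of `P` -/
def Q0 : Subgroup P where
  carrier := {m | ∃ a b c e f, m = un a b c 0 e f}
  one_mem' := ⟨0, 0, 0, 0, 0, un_zero.symm⟩
  mul_mem' := by
    rintro _ _ ⟨a, b, c, e, f, rfl⟩ ⟨a', b', c', e', f', rfl⟩
    rw [un_mul, add_zero (0 : F)]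
    exact ⟨_, _, _, _, _, rfl⟩
  inv_mem' := by
    rintro _ ⟨a, b, c, e, f, rfl⟩
    rw [un_inv, neg_zero]
    exact ⟨_, _, _, _, _, rfl⟩

theorem Q0_pow : ∀ a b c e f : F, un a b c 0 e f ^ 3 = 1 := fun a b c e f => by
  rw [pow_three', un_mul, un_mul, un_eq_one]
  revert a b c e f; decide

theorem cent_Q0 {m : P} (h : ∀ q ∈ Q0, m * q = q * m) : m ∈ zpowers z0 := by
  have k := fun a b c e f i j => congrArg (fun m : P => m.1.1 i j) (h _ ⟨a, b, c, e, f, rfl⟩)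
  obtain ⟨m0, m1, m2, m3⟩ := m.2
  simp only [P_mul_apply, un_val] at k
  have a1 := k 1 0 0 0 0 0 1
  have a2 := k 1 0 0 0 0 0 2
  have a3 := k 1 0 0 0 0 0 3
  have b1 := k 0 1 0 0 0 0 1
  have b2 := k 0 1 0 0 0 0 2
  have b3 := k 0 1 0 0 0 0 3
  have c1 := k 0 0 1 0 0 0 1
  have c2 := k 0 0 1 0 0 0 2
  have c3 := k 0 0 1 0 0 0 3
  have e1 := k 0 0 0 1 0 0 3
  have f1 := k 0 0 0 0 1 0 3
  simp [m0] at a1 a2 a3 b1 b2 b3 c1 c2 c3 e1 f1
  refine mem_zpowers_z0.2 ⟨m.1.1 0 3, ?_⟩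
  have := eq_un (m := m) (by linear_combination -a1) (by linear_combination -b2) (by linear_combination -c3) b1 c1 c2
  rwa [e1, f1, a2, a3, b3] at this

theorem un_z : ∀ k : F, un 0 0 k 0 0 0 = 1 ∨ un 0 0 k 0 0 0 = z0 ∨ un 0 0 k 0 0 0 * un 0 0 k 0 0 0 = z0 := by
  decide +kernel

theorem Md.exists_sylow [Finite G] (h : Md φ) :
    ∃ S : Sylow 3 G, normalizer ((S : Subgroup G) : Set G) ≤ φ.range := by
  have : Fact (Nat.Prime 3) := ⟨Nat.prime_three⟩
  obtain ⟨S, hS⟩ := (IsPGroup.map (H := Q0) (p := 3) (fun ⟨_, a, b, c, e, f, rfl⟩ =>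
    ⟨1, Subtype.ext (Q0_pow a b c e f)⟩) φ).exists_le_sylow
  have zS : φ z0 ∈ (S : Subgroup G) := hS ⟨_, ⟨0, 0, 1, 0, 0, rfl⟩, rfl⟩
  have key : ∀ c, (∀ s ∈ (S : Subgroup G), c * s = s * c) → c ∈ zpowers (φ z0) := fun c hc => by
    obtain ⟨m, rfl⟩ := h.nz c (by rw [hc _ zS, mul_inv_cancel_right]; exact mem_zpowers _)
    rw [← MonoidHom.map_zpowers]
    exact ⟨m, cent_Q0 fun q hq => h.inj (by rw [map_mul, map_mul, hc _ (hS ⟨q, hq, rfl⟩)]), rfl⟩
  have : Nontrivial (S : Subgroup G) := ⟨⟨⟨_, zS⟩, 1, fun e => absurd (h.inj ((congrArg Subtype.val e).trans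
    φ.map_one.symm)) (by decide)⟩⟩
  have := S.isPGroup'.center_nontrivial
  obtain ⟨⟨c, hc⟩, c1⟩ := exists_ne (1 : center (S : Subgroup G))
  replace hc : ∀ s ∈ (S : Subgroup G), c.1 * s = s * c := fun s hs =>
    (congrArg Subtype.val (mem_center_iff.1 hc ⟨s, hs⟩)).symm
  obtain ⟨k, e⟩ := Md.mem_z.1 (key c hc)
  have zc : ∀ s ∈ (S : Subgroup G), φ z0 * s = s * φ z0 := fun s hs => by
    rcases un_z k with e1 | e1 | e1
    · exact absurd (Subtype.ext (Subtype.ext (by rw [e, e1, map_one]; rfl))) c1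
    · rw [← e1, ← e, hc s hs]
    · rw [← e1, map_mul, ← e, mul_assoc, hc s hs, ← mul_assoc, hc s hs, mul_assoc]
  refine ⟨S, fun g hg => h.nz g (key _ fun s hs => ?_)⟩
  have := zc _ ((mem_normalizer_iff.1 (inv_mem hg) s).1 hs)
  calc g * φ z0 * g⁻¹ * s = g * (φ z0 * (g⁻¹ * s * g⁻¹⁻¹)) * g⁻¹ := by group
    _ = _ := by rw [this]; group

theorem Lb.index_ne_two [Finite G] (h : Lb f) (H : Subgroup G) : H.index ≠ 2 := fun e => by
  have : Fact (Nat.Prime 3) := ⟨Nat.prime_three⟩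
  have := normal_of_index_eq_two e
  obtain ⟨S, hS⟩ := h.md.exists_sylow
  have h1 : f.range ≤ H := by
    rw [MonoidHom.range_eq_map, ← H9.commutator_sl_eq_top (by simp), commutator_def, map_commutator, commutator_le]
    intro a _ b _
    rw [commutatorElement_def, mul_assoc, mul_mem_iff_of_index_two e, mul_mem_iff_of_index_two e,
      mul_mem_iff_of_index_two e, inv_mem_iff, inv_mem_iff]
  have h2 : normalizer ((S : Subgroup G) : Set G) ≤ H := fun g hg => h1 (by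
    obtain ⟨m, rfl⟩ := hS hg
    exact ⟨m, rfl⟩)
  have h3 := S.normalizer_sup_eq_top' (le_normalizer.trans h2)
  rw [(sup_eq_right.2 h2).symm.trans h3, index_top] at e
  omega

end Cfsg.Agent.L43
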