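import Cfsg.Agent.L43.Vd2

/-! The subgroup `E = Q ∩ Q'` is normal in `C`. -/

set_option autoImplicit false

namespace Cfsg.Agent.L43

open Subgroup Module

universe u

variable {G : Type u} [Group G] [Finite G] {z z' : G} {C Q C' Q' : Subgroup G} {π : C →* S2} {π' : C' →* S2}
  {V : Type u} [AddCommGroup V] [Module F V] {p : G → V} {B : LinearMap.BilinForm F V} {R : G → End F V}

theorem card_le_of_cover {H K : Subgroup G} (x : G) {n : ℕ} (h : ∀ a ∈ H, ∃ i < n, a * (x ^ i)⁻¹ ∈ K) :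
    Nat.card H ≤ Nat.card K * n := by
  choose! i hi hk using h
  have := Nat.card_le_card_of_injective (fun a : H => ((⟨_, hk a a.2⟩ : K), (⟨_, hi a a.2⟩ : Fin n))) fun a b e => by
    have e1 : a.1 * (x ^ i a)⁻¹ = b.1 * (x ^ i b)⁻¹ := congrArg (fun q : K × Fin n => q.1.1) e
    have e2 : i a = i b := congrArg (fun q : K × Fin n => q.2.1) e
    rw [e2] at e1
    exact Subtype.ext (mul_right_cancel e1)
  simpa using this

omit [Finite G] in
theorem exists_B_one {B : LinearMap.BilinForm F V} (alt : B.IsAlt) (nd : ∀ v, (∀ w, B v w = 0) → v = 0) {w : V}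
    (hw : w ≠ 0) : ∃ v, B v w = 1 := by
  obtain ⟨u, hu⟩ : ∃ u, B w u ≠ 0 := by_contra fun e => hw (nd _ fun u => by_contra fun k => e ⟨u, k⟩)
  exact ⟨-(B w u)⁻¹ • u, by
    rw [map_smul, LinearMap.smul_apply, ← alt.neg_eq w u, smul_eq_mul, neg_mul_neg, inv_mul_cancel₀ hu]⟩

namespace Hy

variable (h : Hy z C Q π) (h' : Hy z' C' Q' π') (hw : z' ∈ Q) (hn : z' ∉ zpowers z)
include h h' hw hn

theorem exists_x : ∃ x ∈ Q' ⊓ C, x ∉ Q ∧ (∃ e ∈ Q ⊓ Q', x * e ≠ e * x) ∧ 27 ≤ Nat.card (Q ⊓ Q' : Subgroup G) := by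
  have zQ := h.sym h' hw hn
  obtain ⟨a, ha, b, hb, h1, h2, k, hk, e⟩ := h'.nab zQ (h.sym' h' hn)
  have nc : a * b ≠ b * a := fun c => hk ((pow_val_eq_one h'.oz).1 (by rw [← e, c]; group))
  have aX : a ∈ Q' ⊓ C := ⟨ha, (h.memC a).2 h1⟩
  have bX : b ∈ Q' ⊓ C := ⟨hb, (h.memC b).2 h2⟩
  obtain ⟨x, hx, xQ⟩ : ∃ x ∈ Q' ⊓ C, x ∉ Q := by
    by_contra! k
    exact nc (h.inf_comm h' hn ⟨k a aX, ha⟩ ⟨k b bX, hb⟩)
  have cov : ∀ a ∈ Q' ⊓ C, ∃ i < 3, a * (x ^ i)⁻¹ ∈ Q ⊓ Q' := fun a ha =>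
    (h.cyc inf_le_right (fun a ha => h'.exp a ha.1) hx xQ ha).imp fun i hi =>
      ⟨hi.1, hi.2, Q'.mul_mem ha.1 (Q'.inv_mem (Q'.pow_mem hx.1 i))⟩
  refine ⟨x, hx, xQ, by_contra fun k => nc ?_, ?_⟩
  · replace k : ∀ e ∈ Q ⊓ Q', Commute x e := fun e he => by_contra fun c => k ⟨e, he, c⟩
    obtain ⟨i, -, hi⟩ := cov a aX
    obtain ⟨j, -, hj⟩ := cov b bX
    rw [← inv_mul_cancel_right a (x ^ i), ← inv_mul_cancel_right b (x ^ j)]
    exact (((Commute.mul_right (h.inf_comm h' hn hi hj) ((k _ hi).pow_left j).symm)).mul_left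
      (((k _ hj).pow_left i).mul_right (Commute.pow_pow_self x i j))).eq
  · obtain ⟨V, _, _, p, B, R, d⟩ := h'.exists_vd
    obtain ⟨v, hv⟩ := exists_B_one d.alt d.nd fun e => h.sym' h' hn ((d.zero z zQ).1 e)
    obtain ⟨q, hq, rfl⟩ := d.sur v
    have e1 := card_le_of_cover x cov
    have e2 := card_le_of_cover (H := Q') (K := Q' ⊓ C) q (n := 3) fun a ha => by
      have m := mul_mem ha (inv_mem (pow_mem hq (B (p a) (p z)).val))
      refine ⟨_, ZMod.val_lt (B (p a) (p z)), m, (h.memC _).2 ((d.comm_iff h' m zQ).2 ?_)⟩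
      rw [d.mul _ ha _ (inv_mem (pow_mem hq _)), d.inv (pow_mem hq _), d.pow_val hq]
      simp [hv]
    rw [h'.card] at e2
    omega

theorem exists_ee' : ∃ y ∈ C, ∃ a b x, C ≤ normalizer ((Q ⊓ Q' : Subgroup G) : Set G) ∧
    Nat.card (Q ⊓ Q' : Subgroup G) = 27 ∧ (∀ g, (∀ u ∈ Q ⊓ Q', g * u = u * g) → g ∈ Q ⊓ Q') ∧
    (∀ c ∈ C, (∀ u ∈ Q ⊓ Q', c * u * c⁻¹ * u⁻¹ ∈ zpowers z) → c ∈ Q) ∧
    (∀ i j : ℕ, (y * z' * y⁻¹) ^ i * z' ^ j ∈ zpowers z → 3 ∣ i ∧ 3 ∣ j) ∧ a ∈ Q ∧ b ∈ Q ∧ x ∈ C ∧ x ∉ Q ∧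
    x ^ 3 = 1 ∧ x * a * x⁻¹ = b * a ∧ a * b = b * a ∧ x * b = b * x ∧
    ∀ i j : ℕ, a ^ i * b ^ j ∈ Q ⊓ Q' → 3 ∣ i ∧ 3 ∣ j := by
  have zQ := h.sym h' hw hn
  obtain ⟨x, hx, xQ, ⟨e₀, he₀, ne₀⟩, h27⟩ := h.exists_x h' hw hn
  obtain ⟨t, t1, t2, t3⟩ := exists_t h' zQ (h.sym' h' hn)
  obtain ⟨V, _, _, p, B, R, d⟩ := h.exists_vd
  have x3 := cube (π := π) (a := ⟨x, hx.2⟩) (h'.exp x hx.1)
  obtain ⟨y, y3, br, sq, gen⟩ := s2_gen _ (fun e => xQ ((h.ker _).1 e)) x3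
  obtain ⟨y, rfl⟩ := h.sur y
  obtain ⟨N, hN⟩ : ∃ N, d.ρ h ⟨x, hx.2⟩ - 1 = N := ⟨_, rfl⟩
  obtain ⟨M, hM⟩ : ∃ M, d.ρ h y - 1 = M := ⟨_, rfl⟩
  have NN := hN ▸ d.sq h x3
  have MM := hM ▸ d.sq h y3
  have sk := hN ▸ d.skew h x3
  have eN : d.ρ h ⟨x, hx.2⟩ = 1 + N := by rw [← hN, add_sub_cancel]
  have eM : d.ρ h y = 1 + M := by rw [← hM, add_sub_cancel]
  have NM := braid (fun D e => LinearMap.ext fun v => eq_zero_of_neg (LinearMap.congr_fun e v)) NN MM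
    (by rw [← eN, ← eM, ← map_mul, ← map_mul, ← map_mul, ← map_mul]; exact d.ρ_eq h (by simpa only [map_mul] using br))
    (by rw [← eN, ← eM, ← map_mul, ← map_mul, ← map_mul]; exact d.ρ_neg h (by simpa only [map_mul] using sq))
  obtain ⟨w, hw'⟩ : ∃ w, p z' = w := ⟨_, rfl⟩
  have w0 : w ≠ 0 := fun e => hn ((d.zero _ hw).1 (hw'.trans e))
  have Na : ∀ a ∈ Q, N (p a) = p (x * a * x⁻¹ * a⁻¹) := fun a ha => hN ▸ d.sub (h.CN hx.2) ha
  have pz : ∀ a ∈ zpowers z', ∃ k : F, a = z' ^ k.val ∧ p a = k • w := fun a ha =>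
    ((mem_zp3 h'.oz).1 ha).imp fun k e => ⟨e, by rw [e, d.pow_val hw, hw']⟩
  have Nw : N w = 0 := by rw [← hw', Na _ hw, h'.zc hx.1]; simpa using d.one
  obtain ⟨u, hu⟩ : ∃ u, M w = u := ⟨_, rfl⟩
  have Nu : N u = -w := by
    have := LinearMap.congr_fun NM w
    simpa [Nw, hu] using this
  have Mu : M u = 0 := hu ▸ LinearMap.congr_fun MM w
  have ind : ∀ i j : F, i • u + j • w = 0 → i = 0 ∧ j = 0 := fun i j e => by
    have := congrArg N e
    simp only [map_add, map_smul, Nu, Nw, smul_zero, add_zero, map_zero, smul_neg, neg_eq_zero] at this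
    obtain rfl := (smul_eq_zero.1 this).resolve_right w0
    exact ⟨rfl, (smul_eq_zero.1 (by simpa using e)).resolve_right w0⟩
  have inv : ∀ c : C, ∀ v ∈ Submodule.span F {w, u}, d.ρ h c v ∈ Submodule.span F {w, u} := fun c => by
    have mw : w ∈ Submodule.span F {w, u} := Submodule.subset_span (by simp)
    have mu : u ∈ Submodule.span F {w, u} := Submodule.subset_span (by simp)
    let K : Submonoid C := ⟨⟨{c | ∀ v ∈ Submodule.span F {w, u}, d.ρ h c v ∈ Submodule.span F {w, u}},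
      fun ha hb v hv => by rw [map_mul]; exact ha _ (hb v hv)⟩, fun v hv => by rwa [map_one]⟩
    have k1 : (⟨x, hx.2⟩ : C) ∈ K := fun v hv => by
      obtain ⟨i, j, rfl⟩ := Submodule.mem_span_pair.1 hv
      simpa [eN, Nw, Nu] using add_mem (add_mem (Submodule.smul_mem _ i mw)
        (Submodule.smul_mem _ j mu)) (neg_mem (Submodule.smul_mem _ j mw))
    have k2 : y ∈ K := fun v hv => by
      obtain ⟨i, j, rfl⟩ := Submodule.mem_span_pair.1 hv
      simpa [eM, hu, Mu] using add_mem (add_mem (Submodule.smul_mem _ i mw)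
        (Submodule.smul_mem _ j mu)) (Submodule.smul_mem _ i mu)
    obtain ⟨i, j, l, m, e⟩ := gen (π c)
    rw [d.ρ_eq h (a := c) (b := ⟨x, hx.2⟩ ^ i.1 * y ^ j.1 * ⟨x, hx.2⟩ ^ l.1 * y ^ m.1)
      (by simpa only [map_mul, map_pow] using e)]
    exact mul_mem (mul_mem (mul_mem (pow_mem k1 _) (pow_mem k2 _)) (pow_mem k1 _)) (pow_mem k2 _)
  have Ew : ∀ e ∈ Q ⊓ Q', B (p e) w = 0 := fun e he => hw' ▸ (d.comm_iff h he.1 hw).1 (h'.zc he.2)
  have wu : B w u = 0 := by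
    obtain ⟨k, e1, e2⟩ := pz _ (h'.comm x hx.1 e₀ he₀.2)
    have k0 : k ≠ 0 := fun k0 => ne₀ (by
      rwa [k0, ZMod.val_zero, pow_zero, mul_inv_eq_one, mul_inv_eq_iff_eq_mul] at e1)
    have := sk (p e₀) u
    rw [Na _ he₀.1, e2, Nu, map_neg, Ew _ he₀, map_smul, LinearMap.smul_apply, smul_eq_mul] at this
    exact (mul_eq_zero.1 (by simpa using this)).resolve_left k0
  have uw : B u w = 0 := by rw [← d.alt.neg_eq, wu, neg_zero]
  have tN := h.mem_norm t1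
  have BS := d.B_R h tN (ε := -1) fun k => by rw [← conj_pow, t1, neg_one_mul, pow_val_neg h.z3, inv_pow]
  have Sw : R t w = w := by rw [← hw', d.act _ tN _ hw, t2]
  have Eu : ∀ e ∈ Q ⊓ Q', B (p e) u = 0 := by
    have hC : t * y * t⁻¹ ∈ C := (h.memC _).2 (by
      have e : z = t * z⁻¹ * t⁻¹ := by rw [← conj_inv, t1, inv_inv]
      have := (Commute.inv_right ((h.memC y).1 y.2)).eq
      calc t * y * t⁻¹ * z = t * (y * z⁻¹) * t⁻¹ := by nth_rw 1 [e]; group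
        _ = _ := by rw [this]; nth_rw 2 [e]; group)
    have e1 : R t * d.ρ h y = d.ρ h ⟨_, hC⟩ * R t := by
      show R t * R y = R _ * R t
      rw [← d.R_mul tN (h.CN y.2), ← d.R_mul (h.CN hC) tN, inv_mul_cancel_right]
    have e2 := LinearMap.congr_fun e1 w
    rw [End.mul_apply, End.mul_apply, Sw, eM, LinearMap.add_apply, End.one_apply, hu, map_add, Sw] at e2
    obtain ⟨i, j, e3⟩ := Submodule.mem_span_pair.1 (sub_mem (e2 ▸ inv ⟨_, hC⟩ w (Submodule.subset_span (by simp)))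
      (Submodule.subset_span (show w ∈ ({w, u} : Set V) by simp)))
    rw [add_sub_cancel_left] at e3
    have e4 : d.ρ h ⟨x, hx.2⟩ * R t * d.ρ h ⟨x, hx.2⟩ = R t := by
      show R x * R t * R x = R t
      have k := zpowers_le.2 hw (t3 x hx.1)
      have k' := (mem_normalizer_iff.1 (h.CN hx.2) _).1 k
      rw [← d.R_mul (h.CN hx.2) tN, ← d.R_mul (mul_mem (h.CN hx.2) tN) (h.CN hx.2),
        show x * t * x = x * (t * x * t⁻¹ * x) * x⁻¹ * t by group, d.R_mul (le_normalizer k') tN, d.R_Q h k', one_mul]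
    have e5 := LinearMap.congr_fun e4 u
    simp only [eN, End.mul_apply, LinearMap.add_apply, End.one_apply, Nu, map_add, map_neg, Sw, ← e3, map_smul, Nw,
      add_zero] at e5
    obtain rfl : j = -1 := by
      have := (ind 0 (1 + j) (by linear_combination (norm := module) -e5)).2
      linear_combination this
    intro e he
    obtain ⟨k, -, e6⟩ := pz _ (t3 e he.2)
    rw [d.mul _ ((mem_normalizer_iff.1 tN e).1 he.1) _ he.1, ← d.act _ tN _ he.1, ← eq_sub_iff_add_eq] at e6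
    have := BS (p e) u
    simp only [e6, ← e3, map_sub, map_add, map_smul, LinearMap.sub_apply, LinearMap.smul_apply, wu, Ew e he,
      d.alt.self_eq_zero, smul_eq_mul] at this
    exact eq_zero_of_neg (V := F) (by linear_combination this)
  obtain ⟨v, hv⟩ := exists_B_one d.alt d.nd w0
  have Nvw : ∀ v, B (N v) w = 0 := fun v => by rw [sk, Nw, map_zero, neg_zero]
  have Nvu : ∀ v, B (N v) u = B v w := fun v => by rw [sk, Nu, map_neg, neg_neg]
  let f : Q →* Multiplicative (F × F) := MonoidHom.mk' (fun a => Multiplicative.ofAdd (B (p a) w, B (p a) u))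
    fun a b => by rw [coe_mul, d.mul _ a.2 _ b.2, ← ofAdd_add]; simp
  have fs : f.range = ⊤ := MonoidHom.range_eq_top.2 fun s => by
    obtain ⟨a, ha, e⟩ := d.sur (s.toAdd.1 • v + (s.toAdd.2 - s.toAdd.1 * B v u) • N v)
    refine ⟨⟨a, ha⟩, Multiplicative.toAdd.injective (Prod.ext ?_ ?_)⟩
    · show B (p a) w = _
      simp [e, hv, Nvw]
    · show B (p a) u = _
      simp [e, hv, Nvu]
  have fk : Nat.card f.ker = 27 := by
    have := f.ker.index_mul_card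
    rw [index_ker, fs, card_top, h.card, Nat.card_congr Multiplicative.toAdd, Nat.card_prod, Nat.card_zmod] at this
    omega
  have EE : Q ⊓ Q' = f.ker.map Q.subtype := eq_of_le_of_card_ge
    (fun e he => ⟨⟨e, he.1⟩, Multiplicative.toAdd.injective (Prod.ext (Ew e he) (Eu e he)), rfl⟩)
    (by rw [card_map_of_injective Q.subtype_injective, fk]; exact h27)
  have mE : ∀ a ∈ Q, B (p a) w = 0 → B (p a) u = 0 → a ∈ Q ⊓ Q' := fun a ha h1 h2 =>
    EE ▸ ⟨⟨a, ha⟩, Multiplicative.toAdd.injective (Prod.ext h1 h2), rfl⟩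
  have CE : C ≤ normalizer ((Q ⊓ Q' : Subgroup G) : Set G) := fun c hc => mem_normalizer_fintype fun e he => by
    have k : ∀ v ∈ Submodule.span F {w, u}, B (p (c * e * c⁻¹)) v = 0 := fun v hv => by
      obtain ⟨i, j, e1⟩ := Submodule.mem_span_pair.1 (inv ⟨c, hc⟩⁻¹ v hv)
      have := d.B_ρ h ⟨c, hc⟩ (p e) (d.ρ h ⟨c, hc⟩⁻¹ v)
      rw [← End.mul_apply, ← map_mul, mul_inv_cancel, map_one, ← e1, map_add, map_smul, map_smul, Ew e he, Eu e he,
        smul_zero, smul_zero, add_zero] at this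
      rw [← d.act _ (h.CN hc) _ he.1]
      exact this
    exact mE _ ((mem_normalizer_iff.1 (h.CN hc) e).1 he.1) (k w (Submodule.subset_span (by simp)))
      (k u (Submodule.subset_span (by simp)))
  have zE : z' ∈ Q ⊓ Q' := ⟨hw, h'.zQ⟩
  have e1E := (mem_normalizer_iff.1 (CE y.2) _).1 zE
  have pe1 : p (y * z' * y.1⁻¹) = w + u := by
    rw [← d.act _ (h.CN y.2) _ hw, hw', ← hu]
    exact LinearMap.congr_fun eM w
  have ker : ∀ c ∈ C, (∀ u ∈ Q ⊓ Q', c * u * c⁻¹ * u⁻¹ ∈ zpowers z) → c ∈ Q := fun c hc k => by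
    have k1 : ∀ s : C, d.ρ h (s * ⟨c, hc⟩ * s⁻¹) w = w := fun s => by
      have m := (mem_normalizer_iff.1 (CE (inv_mem s.2)) _).1 zE
      have := d.sub (h.CN hc) m.1
      rw [(d.zero _ (h.zle (k _ m))).2 (k _ m), LinearMap.sub_apply, sub_eq_zero, ← d.act _ (h.CN (inv_mem s.2)) _ hw,
        hw'] at this
      rw [map_mul, map_mul, End.mul_apply, End.mul_apply]
      refine (congrArg (d.ρ h s) this).trans ?_
      show d.ρ h s (d.ρ h s⁻¹ w) = w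
      rw [← End.mul_apply, ← map_mul, mul_inv_cancel, map_one, End.one_apply]
    refine (h.ker ⟨c, hc⟩).1 (by_contra fun c1 => w0 (eq_zero_of_neg ?_))
    obtain ⟨a, ⟨s, e1⟩, b, ⟨s', e2⟩, e3⟩ := s2_neg _ c1
    obtain ⟨s, rfl⟩ := h.sur s
    obtain ⟨s', rfl⟩ := h.sur s'
    have := d.ρ_neg h (c := (1 * ⟨c, hc⟩ * 1⁻¹) * (s * ⟨c, hc⟩ * s⁻¹) * (s' * ⟨c, hc⟩ * s'⁻¹)) (by
      simp only [map_mul, map_inv, e1, e2, mul_inv_cancel_right, one_mul, inv_one, mul_one, e3])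
    have e4 := LinearMap.congr_fun this w
    rwa [map_mul, map_mul, End.mul_apply, End.mul_apply, k1, k1, k1] at e4
  obtain ⟨a, ha, pa⟩ := d.sur (v + B (N v) v • u)
  have aw : B (p a) w = 1 := by simp [pa, hv, uw]
  have aa : B (p a) (N (p a)) = 0 := by
    have : B u (N v) = -1 := by rw [← d.alt.neg_eq, Nvu, hv]
    have e : B v (N v) = -B (N v) v := (d.alt.neg_eq _ _).symm
    simp only [pa, map_add, map_smul, Nu, map_neg, LinearMap.add_apply, LinearMap.smul_apply, smul_eq_mul, hv, uw,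
      this, e]
    generalize B (N v) v = s
    revert s; decide
  have cq : ∀ {c a : G}, c ∈ C → a ∈ Q → c * a * c⁻¹ * a⁻¹ ∈ Q := fun hc ha =>
    mul_mem ((mem_normalizer_iff.1 (h.CN hc) _).1 ha) (inv_mem ha)
  have b0 := cq hx.2 ha
  obtain ⟨k, hk⟩ := (mem_zp3 h.oz).1 ((d.zero _ (cq hx.2 b0)).1 (by
    rw [← Na _ b0, ← Na _ ha]; exact LinearMap.congr_fun NN _))
  obtain ⟨q, hq⟩ : ∃ q, (y * z' * y.1⁻¹) ^ k.val = q := ⟨_, rfl⟩
  have qE : q ∈ Q ⊓ Q' := hq ▸ pow_mem e1E _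
  have xC := mul_mem hx.2 (h.QC qE.1)
  have b1 := cq xC ha
  have pb : p (x * q * a * (x * q)⁻¹ * a⁻¹) = N (p a) := by
    rw [← d.sub (h.CN xC) ha, d.R_mul (h.CN hx.2) (le_normalizer qE.1), d.R_Q h qE.1, mul_one, ← hN]; rfl
  refine ⟨y, y.2, a, x * q * a * (x * q)⁻¹ * a⁻¹, x * q, CE, by rw [EE, card_map_of_injective Q.subtype_injective, fk],
    fun g hg => ?_, ker, fun i j e => ?_, ha, b1, xC, fun k => xQ (by simpa using mul_mem k (inv_mem qE.1)),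
    h'.exp _ (mul_mem hx.1 qE.2), by group, (d.comm_iff h ha b1).2 (pb ▸ aa), ?_, fun i j e => ?_⟩
  · have gQ := ker g ((h.memC g).2 (hg z ⟨h.zQ, zQ⟩)) fun u hu => by rw [hg u hu]; simp
    have g1 := hw' ▸ (d.comm_iff h gQ hw).1 (hg _ zE)
    have g2 := (d.comm_iff h gQ e1E.1).1 (hg _ e1E)
    rw [pe1, map_add, g1, zero_add] at g2
    exact mE g gQ g1 g2
  · have := (d.zero _ (h.zle e)).2 e
    rw [d.mul _ (pow_mem e1E.1 i) _ (pow_mem hw j), d.pow e1E.1, d.pow hw, pe1, hw'] at this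
    obtain ⟨h1, h2⟩ := ind i (i + j) (by rw [← this]; module)
    rw [h1, zero_add] at h2
    exact ⟨(ZMod.natCast_eq_zero_iff i 3).1 h1, (ZMod.natCast_eq_zero_iff j 3).1 h2⟩
  · obtain ⟨b, hb⟩ : ∃ b, x * a * x⁻¹ * a⁻¹ = b := ⟨_, rfl⟩
    rw [hb] at b0 hk
    have e1 := d.comm q qE.1 b b0
    rw [← hb, ← Na _ ha, hb, ← hq, d.pow_val e1E.1, hq, pe1, map_smul, LinearMap.smul_apply, ← d.alt.neg_eq, map_add,
      Nvw, Nvu, aw, zero_add, smul_eq_mul, mul_neg, mul_one, pow_val_neg h.z3] at e1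
    have c1 : Commute (x * q) b := by
      have c : Commute x (z ^ k.val)⁻¹ := (Commute.pow_right ((h.memC x).1 hx.2) _).inv_right
      have c' : Commute (x * b * x⁻¹) (z ^ k.val)⁻¹ :=
        (Commute.pow_right (h.zc ((mem_normalizer_iff.1 (h.CN hx.2) _).1 b0)) _).inv_right
      rw [commute_iff_eq, ← mul_inv_eq_iff_eq_mul, ← mul_inv_eq_one]
      calc x * q * b * (x * q)⁻¹ * b⁻¹ = x * (q * b * q⁻¹ * b⁻¹) * x⁻¹ * (x * b * x⁻¹ * b⁻¹) := by group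
        _ = 1 := by rw [e1, hk, c.eq]; group
    obtain ⟨n, hn⟩ := mem_zpowers_iff.1 ((d.zero _ (mul_mem b1 (inv_mem b0))).1 (by
      rw [d.mul _ b1 _ (inv_mem b0), d.inv b0, pb, ← hb, Na _ ha, add_neg_cancel]))
    rw [← inv_mul_cancel_right (x * q * a * (x * q)⁻¹ * a⁻¹) b, ← hn]
    exact ((Commute.zpow_right ((h.memC _).1 xC) n).mul_right c1).eq
  · have e1 := Ew _ e
    have e2 := Eu _ e
    rw [d.mul _ (pow_mem ha i) _ (pow_mem b1 j), d.pow ha, d.pow b1, pb] at e1 e2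
    simp only [map_add, map_smul, LinearMap.add_apply, LinearMap.smul_apply, aw, Nvw, Nvu, smul_eq_mul, mul_one,
      mul_zero, add_zero] at e1 e2
    rw [e1, zero_mul, zero_add] at e2
    exact ⟨(ZMod.natCast_eq_zero_iff i 3).1 e1, (ZMod.natCast_eq_zero_iff j 3).1 e2⟩

end Hy

/-- notes/L43.md, section Ee -/
theorem Hy.exists_ee (h : Hy z C Q π) {g : G} (hg : g * z * g⁻¹ ∈ Q) (hz : g * z * g⁻¹ ∉ zpowers z) :
    ∃ (E : Subgroup G) (g₁ a b x : G), Ee z C Q E g₁ g a b x := by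
  obtain ⟨C', Q', π', h', m⟩ := h.conj g
  obtain ⟨y, hy, a, b, x, h1, h2, h3, h4, h5, h6, h7, h8, h9, h10, h11, h12, h13, h14⟩ := h.exists_ee' h' hg hz
  have e : y * g * z * (y * g)⁻¹ = y * (g * z * g⁻¹) * y⁻¹ := by group
  refine ⟨Q ⊓ Q', y * g, a, b, x, h2, ⟨h.zQ, h.sym h' hg hz⟩, inf_le_left, fun u hu v hv => h.inf_comm h' hz hu hv,
    h1, h3, h4, fun u hu => ?_, fun u hu => (m u).1 hu.2, e ▸ (mem_normalizer_iff.1 (h1 hy) _).1 ⟨hg, h'.zQ⟩,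
    ⟨hg, h'.zQ⟩, e ▸ h5, h6, h7, h8, h9, h10, h11, h12, h13, h14⟩
  have := (m _).1 ((mem_normalizer_iff.1 (h1 (inv_mem hy)) u).1 hu).2
  simpa [mul_assoc] using this

end Cfsg.Agent.L43
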