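import Cfsg.Agent.L43.GlA
import Cfsg.Statements.S3373
import Cfsg.Agent.S0249
import Cfsg.Agent.H22.Core

/-! The image of `P` is a maximal parabolic subgroup of `L₄(3)`. -/

set_option autoImplicit false
set_option synthInstance.maxSize 4096
set_option maxRecDepth 100000

namespace Cfsg.Agent.L43

open Subgroup Matrix L4Q

/-- the projection onto the Levi factor -/
def fLow : P →* S3 where
  toFun m := ⟨!![m.1.1 1 1, m.1.1 1 2, m.1.1 1 3; m.1.1 2 1, m.1.1 2 2, m.1.1 2 3; m.1.1 3 1, m.1.1 3 2, m.1.1 3 3], by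
    have d := m.1.2
    obtain ⟨m0, m1, m2, m3⟩ := m.2
    rw [det4, m0, m1, m2, m3] at d
    rw [det_fin_three]; simp; linear_combination d⟩
  map_one' := Subtype.ext (by decide +kernel)
  map_mul' a b := Subtype.ext (by
    obtain ⟨-, m1, m2, m3⟩ := a.2
    change _ = (_ : Matrix (Fin 3) (Fin 3) F) * _
    ext i j
    fin_cases i <;> fin_cases j <;> simp only [P_mul_apply, m1, m2, m3] <;> simp [mul_apply, Fin.sum_univ_three])

theorem fLow_iota (g : S3) : fLow (iota g) = g := Subtype.ext (by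
  ext i j
  fin_cases i <;> fin_cases j <;> rfl)

theorem mem_fLow_ker {m : P} : m ∈ fLow.ker ↔ ∃ a b c, m = un a b c 0 0 0 := by
  refine ⟨fun h => ?_, ?_⟩
  · have k := fun i j => congrArg (fun g : S3 => g.1 i j) (MonoidHom.mem_ker.1 h)
    have e := eq_un (m := m) (k 0 0) (k 1 1) (k 2 2) (k 1 0) (k 2 0) (k 2 1)
    rw [show m.1.1 1 2 = 0 from k 0 1, show m.1.1 1 3 = 0 from k 0 2, show m.1.1 2 3 = 0 from k 1 2] at e
    exact ⟨_, _, _, e⟩
  · rintro ⟨a, b, c, rfl⟩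
    exact Subtype.ext (by ext i j; fin_cases i <;> fin_cases j <;> rfl)

theorem card_fLow_ker : Nat.card fLow.ker = 27 := by
  rw [← Nat.card_congr (Equiv.ofBijective (fun v : F × F × F => (⟨un v.1 v.2.1 v.2.2 0 0 0,
    mem_fLow_ker.2 ⟨_, _, _, rfl⟩⟩ : fLow.ker)) ⟨fun u v e => ?_, fun ⟨m, hm⟩ => ?_⟩)]
  · simp
  · obtain ⟨e1, e2, e3, -⟩ := un_inj.1 (congrArg Subtype.val e)
    exact Prod.ext e1 (Prod.ext e2 e3)
  · obtain ⟨a, b, c, rfl⟩ := mem_fLow_ker.1 hm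
    exact ⟨(a, b, c), rfl⟩

theorem simple_S3 : IsSimpleGroup S3 := by
  have := S0249.result (F := F) 3 le_rfl
  have h : center S3 = ⊥ := (eq_bot_iff_forall _).2 fun g hg => by
    obtain ⟨r, h1, h2⟩ := Matrix.SpecialLinearGroup.mem_center_iff.1 hg
    obtain rfl := (by decide : ∀ r : F, r ^ 3 = 1 → r = 1) r h1
    exact Subtype.ext (by rw [← h2, map_one]; rfl)
  exact ((QuotientGroup.quotientMulEquivOfEq h).trans QuotientGroup.quotientBot).symm.isSimpleGroup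

theorem pCore_P : pCore 3 P = fLow.ker := by
  have : Fact (Nat.Prime 3) := ⟨Nat.prime_three⟩
  have := simple_S3
  have hs : Function.Surjective fLow := fun g => ⟨_, fLow_iota g⟩
  refine le_antisymm ?_ (H22.le_pCore inferInstance (IsPGroup.of_card (n := 3) card_fLow_ker))
  rcases ((inferInstance : (pCore 3 P).Normal).map fLow hs).eq_bot_or_eq_top with h | h
  · exact (Subgroup.map_eq_bot_iff _).1 h
  · obtain ⟨k, hk⟩ := (H22.isPGroup_pCore (p := 3) (G := P)).map fLow ⟨fLow t0, h.ge (mem_top _)⟩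
    replace hk : fLow t0 ^ 3 ^ k = 1 := congrArg Subtype.val hk
    obtain ⟨j, hj⟩ : Odd (3 ^ k) := Odd.pow (by decide)
    rw [hj, pow_succ, pow_mul, (by decide +kernel : fLow t0 ^ 2 = 1), one_pow, one_mul] at hk
    exact absurd hk (by decide +kernel)

theorem f_col {g : S4} (h : ¬ (g.1 1 0 = 0 ∧ g.1 2 0 = 0 ∧ g.1 3 0 = 0)) : ∃ m : P, ∀ i, m.1.1 i 1 = g.1 i 0 := by
  obtain ⟨b, c, e, f, h', i, k⟩ := (by decide +kernel : ∀ x y z : F, ¬ (x = 0 ∧ y = 0 ∧ z = 0) → ∃ b c e f h i : F,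
    x * (e * i - f * h) - b * (y * i - f * z) + c * (y * h - e * z) = 1) _ _ _ h
  exact ⟨pm !![1, g.1 0 0, 0, 0; 0, g.1 1 0, b, c; 0, g.1 2 0, e, f; 0, g.1 3 0, h', i]
    ⟨by simp only [det4]; simp; linear_combination k, rfl, rfl, rfl, rfl⟩, fun i => by fin_cases i <;> rfl⟩

theorem f_mem {g : S4} (h : g.1 1 0 = 0 ∧ g.1 2 0 = 0 ∧ g.1 3 0 = 0) : pr4 g ∈ (pr4.comp P.subtype).range := by
  have d := g.2
  rw [det4, h.1, h.2.1, h.2.2] at d
  rcases (by decide : ∀ c : F, c = 0 ∨ c = 1 ∨ c = -1) (g.1 0 0) with e | e | e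
  · simp [e] at d
  · exact ⟨⟨g, e, h⟩, rfl⟩
  · refine ⟨⟨⟨-g.1, by rw [det_neg, g.2]; decide⟩, ?_⟩, pr4_eq.2 ⟨-1, by simp⟩⟩
    exact ⟨by simp [e], by simp [h.1], by simp [h.2.1], by simp [h.2.2]⟩

/-- notes/L43.md, section Fin -/
theorem exists_parabolic : ∃ P' : Subgroup (Matrix.ProjectiveSpecialLinearGroup (Fin 4) (ZMod 3)),
    IsCoatom P' ∧ Nat.card (Cfsg.pCore 3 P') = 27 ∧
      Nonempty (P' ⧸ Cfsg.pCore 3 P' ≃* Matrix.SpecialLinearGroup (Fin 3) (ZMod 3)) ∧ Nonempty (P ≃* P') := by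
  have inj : Function.Injective (pr4.comp P.subtype) := (injective_iff_map_eq_one _).2 fun m hm => by
    obtain ⟨c, e⟩ := pr4_eq_one.1 hm
    have := congrFun (congrFun e 0) 0
    rw [show (P.subtype m).1 0 0 = 1 from m.2.1] at this
    obtain rfl : c = 1 := by simpa using this.symm
    exact P_ext (e.trans (one_smul _ _))
  let e := MonoidHom.ofInjective inj
  have hk : (fLow.comp e.symm.toMonoidHom).ker = pCore 3 _ := by
    rw [← MonoidHom.comap_ker, ← pCore_P, H22.comap_pCore_equiv]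
  refine ⟨_, ⟨fun h => ?_, fun X hX => (eq_top_iff' X).2 fun g => ?_⟩, ?_, ⟨(QuotientGroup.quotientMulEquivOfEq hk).symm.trans
    (QuotientGroup.quotientKerEquivOfSurjective _ fun g => ⟨e (iota g), by simp [fLow_iota]⟩)⟩, ⟨e⟩⟩
  · obtain ⟨m, hm⟩ := h.ge (mem_top (pr4 (w4 F)))
    obtain ⟨c, k⟩ := pr4_eq.1 hm
    have := congrFun (congrFun k 0) 0
    rw [show (P.subtype m).1 0 0 = 1 from m.2.1] at this
    simp [w4_val] at this
  · obtain ⟨x, hx, hx'⟩ := SetLike.exists_of_lt hX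
    obtain ⟨x, rfl⟩ := QuotientGroup.mk'_surjective _ x
    obtain ⟨g, rfl⟩ := QuotientGroup.mk'_surjective _ g
    by_cases hg : g.1 1 0 = 0 ∧ g.1 2 0 = 0 ∧ g.1 3 0 = 0
    · exact hX.le (f_mem hg)
    obtain ⟨m, hm⟩ := f_col hg
    obtain ⟨n, hn⟩ := f_col fun k => hx' (f_mem k)
    have k : ∀ (a : P) (y : S4), (∀ i, a.1.1 i 1 = y.1 i 0) → ∀ i, (a.1⁻¹ * y).1 i 0 = (1 : Matrix (Fin 4) (Fin 4) F) i 1 :=
      fun a y h i => by
        have := congrArg (fun g : S4 => g.1 i 1) (inv_mul_cancel a.1)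
        simp only [val_mul4, mul_apply, h] at this ⊢
        exact this
    have k2 : ∀ i, ((n.1⁻¹ * x)⁻¹ * (m.1⁻¹ * g)).1 i 0 = (1 : Matrix (Fin 4) (Fin 4) F) i 0 := fun i => by
      have := congrArg (fun g : S4 => g.1 i 0) (inv_mul_cancel (n.1⁻¹ * x))
      rw [val_mul4, mul_apply] at this ⊢
      simp only [k n x hn, k m g hm] at this ⊢
      exact this
    have k3 := hX.le (f_mem ⟨k2 1, k2 2, k2 3⟩)
    have mP : ∀ a : P, pr4 a.1 ∈ X := fun a => hX.le ⟨a, rfl⟩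
    rw [map_mul, map_inv, map_mul, map_mul, map_inv, map_inv,
      mul_mem_cancel_left (inv_mem (mul_mem (inv_mem (mP n)) hx)), mul_mem_cancel_left (inv_mem (mP m))] at k3
    exact k3
  · rw [← H22.map_pCore_equiv e, card_map_of_injective (f := e.toMonoidHom) e.injective, pCore_P, card_fLow_ker]

end Cfsg.Agent.L43
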