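import Cfsg.Agent.L43.Bar
import Cfsg.Agent.H39.CTA2

/-! Computations in the model for the amalgamation of the two parabolic subgroups. -/

set_option autoImplicit false
set_option synthInstance.maxSize 4096
set_option maxRecDepth 100000

namespace Cfsg.Agent.L43

open Subgroup Matrix

/-- elements of `N_P(Z)` -/
def nz (a b c p q e r s f d : F) (h : (p * s - q * r) * d = 1) : P :=
  pm !![1, a, b, c; 0, p, q, e; 0, r, s, f; 0, 0, 0, d]
    ⟨by simp only [det4]; simp; linear_combination h, rfl, rfl, rfl, rfl⟩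

theorem nz_val (a b c p q e r s f d : F) (h) :
    (nz a b c p q e r s f d h).1.1 = !![1, a, b, c; 0, p, q, e; 0, r, s, f; 0, 0, 0, d] := rfl

theorem nz_mul (a b c p q e r s f d : F) (h) (a' b' c' p' q' e' r' s' f' d' : F) (h') :
    nz a b c p q e r s f d h * nz a' b' c' p' q' e' r' s' f' d' h' =
    nz (a' + a * p' + b * r') (b' + a * q' + b * s') (c' + a * e' + b * f' + c * d') (p * p' + q * r') (p * q' + q * s')
      (p * e' + q * f' + e * d') (r * p' + s * r') (r * q' + s * s') (r * e' + s * f' + f * d') (d * d')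
      (by linear_combination ((p' * s' - q' * r') * d') * h + h') := by
  refine P_ext (Matrix.ext fun i j => ?_)
  rw [P_mul_apply]
  fin_cases i <;> fin_cases j <;> simp [nz_val]

theorem nz_inj {a b c p q e r s f d : F} {h} {a' b' c' p' q' e' r' s' f' d' : F} {h'} :
    nz a b c p q e r s f d h = nz a' b' c' p' q' e' r' s' f' d' h' ↔
    a = a' ∧ b = b' ∧ c = c' ∧ p = p' ∧ q = q' ∧ e = e' ∧ r = r' ∧ s = s' ∧ f = f' ∧ d = d' :=
  ⟨fun h => have k := fun i j => congrArg (fun m : P => m.1.1 i j) h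
    ⟨k 0 1, k 0 2, k 0 3, k 1 1, k 1 2, k 1 3, k 2 1, k 2 2, k 2 3, k 3 3⟩,
    by rintro ⟨rfl, rfl, rfl, rfl, rfl, rfl, rfl, rfl, rfl, rfl⟩; rfl⟩

theorem un_nz (a b c d e f : F) : un a b c d e f = nz a b c 1 d e 0 1 f 1 (by ring) := rfl
theorem one_nz : (1 : P) = nz 0 0 0 1 0 0 0 1 0 1 (by ring) := un_zero.symm
theorem t0_nz : t0 = nz 0 0 0 (-1) 0 0 0 (-1) 0 1 (by ring) := by decide
theorem t1_nz : t1 = nz 0 0 0 1 0 0 0 (-1) 0 (-1) (by ring) := by decide
theorem t2_nz : t2 = nz 0 0 0 (-1) 0 0 0 1 0 (-1) (by ring) := by decide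

theorem exists_nz {m : P} {k : F} (h : m * z0 = un 0 0 k 0 0 0 * m) :
    ∃ a b c p q e r s f h', m = nz a b c p q e r s f k h' := by
  have e := fun i j => congrArg (fun m : P => m.1.1 i j) h
  obtain ⟨m0, m1, m2, m3⟩ := m.2
  simp only [P_mul_apply, z0, un_val] at e
  have e1 := e 0 1
  have e2 := e 0 2
  have e3 := e 0 3
  have d := m.1.2
  simp [m0] at e1 e2 e3
  replace e3 := (by decide : ∀ k y : F, 1 = k * y → y = k ∧ k ≠ 0) k (m.1.1 3 3) (by linear_combination e3)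
  replace e1 := e1.resolve_left e3.2
  replace e2 := e2.resolve_left e3.2
  rw [det4, m0, m1, m2, m3, e1, e2, e3.1] at d
  exact ⟨m.1.1 0 1, m.1.1 0 2, m.1.1 0 3, m.1.1 1 1, m.1.1 1 2, m.1.1 1 3, m.1.1 2 1, m.1.1 2 2, m.1.1 2 3,
    by linear_combination d, P_ext ((P_eq m).trans (by rw [e1, e2, e3.1, nz_val]))⟩

theorem gl_M0 {n : P} (h : n * z0 = z0 * n) (c e f : F) :
    ∃ c' e' f', n * un 0 0 c 0 e f = un 0 0 c' 0 e' f' * n := by
  obtain ⟨a, b, c', p, q, e', r, s, f', k, rfl⟩ := exists_nz (k := 1) h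
  refine ⟨c + a * e + b * f, p * e + q * f, r * e + s * f, ?_⟩
  simp only [un_nz, nz_mul, nz_inj]
  refine ⟨?_, ?_, ?_, ?_, ?_, ?_, ?_, ?_, ?_, trivial⟩ <;> ring

theorem gl_M1 {m : P} (h : m * z0 = z0 * m) (h2 : m * m = 1) (h1 : m ≠ 1) : ∃ n, n * z0 = z0 * n ∧ n * m = t0 * n := by
  obtain ⟨a, b, c, p, q, e, r, s, f, k, rfl⟩ := exists_nz (k := 1) h
  rw [nz_mul, one_nz, nz_inj] at h2
  obtain ⟨k1, k2, k3, k4, k5, k6, k7, k8, k9, -⟩ := h2
  obtain ⟨rfl, rfl, rfl, rfl⟩ | ⟨rfl, rfl, rfl, rfl⟩ := (by decide +kernel : ∀ p q r s : F, (p * s - q * r) * 1 = 1 →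
    p * p + q * r = 1 → p * q + q * s = 0 → r * p + s * r = 0 → r * q + s * s = 1 →
    (p = 1 ∧ q = 0 ∧ r = 0 ∧ s = 1) ∨ (p = -1 ∧ q = 0 ∧ r = 0 ∧ s = -1)) p q r s k k4 k5 k7 k8
  · refine absurd ?_ h1
    rw [one_nz, nz_inj]
    clear h h1 k
    revert a b c e f; decide +kernel
  · refine ⟨un (-a) (-b) 0 0 e f, by simp [z0, un_mul], ?_⟩
    simp only [un_nz, t0_nz, nz_mul, nz_inj]
    clear h h1 k
    revert a b c e f; decide +kernel

theorem gl_t0 {a b c p q e r s f d : F} {k} (h : nz a b c p q e r s f d k * t0 = t0 * nz a b c p q e r s f d k) :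
    a = 0 ∧ b = 0 ∧ e = 0 ∧ f = 0 := by
  simp only [t0_nz, nz_mul, nz_inj] at h
  have z : ∀ x : F, -x = x → x = 0 := by decide
  exact ⟨z _ (by linear_combination h.1), z _ (by linear_combination h.2.1), z _ (by linear_combination -h.2.2.2.2.2.1),
    z _ (by linear_combination -h.2.2.2.2.2.2.2.2.1)⟩

theorem gl_M2 {m : P} (h : m * z0 = un 0 0 (-1) 0 0 0 * m) (h2 : m * m = 1) (h0 : m * t0 = t0 * m) :
    ∃ n, n * z0 = z0 * n ∧ n * t0 = t0 * n ∧ n * m = t1 * n := by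
  obtain ⟨a, b, c, p, q, e, r, s, f, k, rfl⟩ := exists_nz h
  obtain ⟨rfl, rfl, rfl, rfl⟩ := gl_t0 h0
  rw [nz_mul, one_nz, nz_inj] at h2
  obtain ⟨p', q', r', s', k', e⟩ := (by decide +kernel : ∀ p q r s : F, (p * s - q * r) * -1 = 1 →
    p * p + q * r = 1 → p * q + q * s = 0 → r * p + s * r = 0 → r * q + s * s = 1 → ∃ p' q' r' s' : F,
    (p' * s' - q' * r') * 1 = 1 ∧ p' * p + q' * r = p' ∧ p' * q + q' * s = q' ∧ r' * p + s' * r = -r' ∧
      r' * q + s' * s = -s') p q r s k h2.2.2.2.1 h2.2.2.2.2.1 h2.2.2.2.2.2.2.1 h2.2.2.2.2.2.2.2.1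
  refine ⟨nz 0 0 (-c) p' q' 0 r' s' 0 1 k', ?_, ?_, ?_⟩
  · simp [z0, un_nz, nz_mul, add_comm]
  · simp [t0_nz, nz_mul]
  · simp only [t1_nz, nz_mul, nz_inj, e]
    simp
    linear_combination (by decide : (3 : F) = 0) * c

theorem gl_M3 {m : P} (h : m * z0 = z0 * m) (h0 : t0 * m * t0 * m = 1) (h3 : m * m * m = 1) :
    ∃ a b c e f, m = un a b c 0 e f := by
  obtain ⟨a, b, c, p, q, e, r, s, f, k, rfl⟩ := exists_nz (k := 1) h
  simp only [t0_nz, nz_mul, one_nz, nz_inj] at h0 h3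
  obtain ⟨rfl, rfl, rfl, rfl⟩ := (by decide +kernel : ∀ p q r s : F,
    p * p + q * r = 1 → p * q + q * s = 0 → r * p + s * r = 0 → r * q + s * s = 1 → (p * p + q * r) * p + (p * q + q * s) * r = 1 →
    (p * p + q * r) * q + (p * q + q * s) * s = 0 → (r * p + s * r) * p + (r * q + s * s) * r = 0 →
    (r * p + s * r) * q + (r * q + s * s) * s = 1 → p = 1 ∧ q = 0 ∧ r = 0 ∧ s = 1) p q r s
    (by linear_combination h0.2.2.2.1) (by linear_combination h0.2.2.2.2.1) (by linear_combination h0.2.2.2.2.2.2.1)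
    (by linear_combination h0.2.2.2.2.2.2.2.1) h3.2.2.2.1 h3.2.2.2.2.1 h3.2.2.2.2.2.2.1 h3.2.2.2.2.2.2.2.1
  exact ⟨a, b, c, e, f, rfl⟩

theorem gl_M31 {a b c e f : F} (h : un a b c 0 e f * t1 = t1 * un a b c 0 e f) : b = 0 ∧ c = 0 ∧ e = 0 := by
  simp only [t1_nz, un_nz, nz_mul, nz_inj] at h
  revert a b c e f; decide +kernel

theorem gl_M32 {a b c e f : F} (h : un a b c 0 e f * t2 = t2 * un a b c 0 e f) : a = 0 ∧ c = 0 ∧ f = 0 := by
  simp only [t2_nz, un_nz, nz_mul, nz_inj] at h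
  revert a b c e f; decide +kernel

theorem gl_J1 {b c d e : F} (h : un 0 b c d e 0 * t1 = t1 * un 0 b c d e 0) : un 0 b c d e 0 = 1 := by
  simp only [t1_nz, un_nz, nz_mul, nz_inj, one_nz] at h ⊢
  revert b c d e; decide +kernel

/-- `x₁₄(c) x₃₂(d)` -/
def lo (c d : F) : P := nz 0 0 c 1 0 0 d 1 0 1 (by ring)

theorem gl_M4 {m : P} (h : m * z0 = z0 * m) (h0 : m * t0 = t0 * m) (h1 : t1 * m * t1 * m = 1) (h3 : m * m * m = 1) :
    ∃ c d, m = un 0 0 c d 0 0 ∨ m = lo c d := by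
  obtain ⟨a, b, c, p, q, e, r, s, f, k, rfl⟩ := exists_nz (k := 1) h
  obtain ⟨rfl, rfl, rfl, rfl⟩ := gl_t0 h0
  simp only [t1_nz, nz_mul, one_nz, nz_inj] at h1 h3
  obtain ⟨rfl, rfl, rfl | rfl⟩ := (by decide +kernel : ∀ p q r s : F,
    p * p - q * r = 1 → p * q - q * s = 0 → s * r - r * p = 0 → s * s - r * q = 1 → (p * p + q * r) * p + (p * q + q * s) * r = 1 →
    (p * p + q * r) * q + (p * q + q * s) * s = 0 → (r * p + s * r) * p + (r * q + s * s) * r = 0 →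
    (r * p + s * r) * q + (r * q + s * s) * s = 1 → p = 1 ∧ s = 1 ∧ (r = 0 ∨ q = 0)) p q r s
    (by linear_combination h1.2.2.2.1) (by linear_combination h1.2.2.2.2.1) (by linear_combination h1.2.2.2.2.2.2.1)
    (by linear_combination h1.2.2.2.2.2.2.2.1) h3.2.2.2.1 h3.2.2.2.2.1 h3.2.2.2.2.2.2.1 h3.2.2.2.2.2.2.2.1
  · exact ⟨c, q, Or.inl rfl⟩
  · exact ⟨c, r, Or.inr rfl⟩

theorem twP_lo (a b c : F) (h) (u v : F) : twP a b c h (lo u v) = lo (c * u) (a * b * v) := by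
  refine P_ext (Matrix.ext fun i j => ?_)
  rw [twP_val, tw_apply]
  fin_cases i <;> fin_cases j <;> simp [lo, nz_val, h.1, h.2.1, h.2.2] <;> ring

/-- elementary matrices of the Levi factor -/
def xx (i j : Fin 3) (t : F) : P :=
  if h : i = j then 1 else ⟨SpecialLinearGroup.transvection ((Fin.succ_injective 3).ne h) t, by
    refine ⟨?_, ?_, ?_, ?_⟩ <;> simp [SpecialLinearGroup.transvection_coe, (Fin.succ_ne_zero _)]⟩

theorem xx01 : ∀ t, xx 0 1 t = un 0 0 0 t 0 0 := by decide +kernel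
theorem xx12 : ∀ t, xx 1 2 t = un 0 0 0 0 0 t := by decide +kernel
theorem xx02 : ∀ t, xx 0 2 t = un 0 0 0 0 t 0 := by decide +kernel
theorem xx10 : ∀ t, xx 1 0 t = lo 0 t := by decide +kernel

/-- the Levi factor as a root system -/
def aP : H39.A2 F P where
  x := xx
  add := fun {i j} => by revert i j; decide +kernel
  comm := fun {i j k l} => by unfold Commute SemiconjBy; revert i j k l; decide +kernel
  conj := fun {i j k} => by revert i j k; decide +kernel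

theorem x43_J (a b c d e : F) : xx 2 1 a * un 0 b c d e 0 = un 0 (b - a * c) c (d - a * e) e 0 * xx 2 1 a := by
  refine P_ext (Matrix.ext fun i j => ?_)
  simp only [P_mul_apply]
  fin_cases i <;> fin_cases j <;> simp [xx, un_val, SpecialLinearGroup.transvection_coe, one_apply] <;> ring

/-- the Levi factor -/
def iota : S3 →* P where
  toFun g := pm !![1, 0, 0, 0; 0, g 0 0, g 0 1, g 0 2; 0, g 1 0, g 1 1, g 1 2; 0, g 2 0, g 2 1, g 2 2]
    ⟨by have := g.2; rw [det_fin_three] at this; simp only [det4]; simp; linear_combination this, rfl, rfl, rfl, rfl⟩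
  map_one' := by decide +kernel
  map_mul' g h := P_ext (Matrix.ext fun i j => by
    rw [P_mul_apply]
    fin_cases i <;> fin_cases j <;> simp [mul_apply, Fin.sum_univ_three])

theorem P_eq_top {H : Subgroup P} (h0 : ∀ a, un a 0 0 0 0 0 ∈ H) (h1 : ∀ a, xx 0 1 a ∈ H) (h2 : ∀ a, xx 1 0 a ∈ H)
    (h3 : ∀ a, xx 1 2 a ∈ H) (h4 : ∀ a, xx 2 1 a ∈ H) : H = ⊤ := by
  have key : ∀ {x y w : P}, x ∈ H → y ∈ H → y * x = x * y * w → w ∈ H := fun hx hy e =>
    (mul_mem_cancel_left (mul_mem hx hy)).1 (e ▸ mul_mem hy hx)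
  have h5 : ∀ i j a, xx i j a ∈ H := fun i j a => by
    fin_cases i <;> fin_cases j
    exacts [one_mem _, h1 a, key (h1 (-a)) (h3 1) (by revert a; decide +kernel), h2 a, one_mem _, h3 a,
      key (h4 (-a)) (h2 1) (by revert a; decide +kernel), h4 a, one_mem _]
  have h6 : H.comap iota = ⊤ := H9.sl_subgroup_eq_top_of_transvection _ fun i j hij c => by
    rw [mem_comap, (by revert i j c; decide +kernel : iota (SpecialLinearGroup.transvection hij c) = xx i j c)]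
    exact h5 i j c
  have h7 : ∀ a b c, un a b c 0 0 0 ∈ H := fun a b c => by
    rw [(by simp [un_mul] : un a b c 0 0 0 = un a 0 0 0 0 0 * un 0 b 0 0 0 0 * un 0 0 c 0 0 0)]
    exact mul_mem (mul_mem (h0 a) (key (h0 (-b)) (h1 1) (by revert b; decide +kernel)))
      (key (h0 (-c)) (h5 0 2 1) (by revert c; decide +kernel))
  refine (eq_top_iff' H).2 fun m => ?_
  have d := m.1.2
  obtain ⟨m0, m1, m2, m3⟩ := m.2
  rw [det4, m0, m1, m2, m3] at d
  have e : m = iota ⟨!![m.1.1 1 1, m.1.1 1 2, m.1.1 1 3; m.1.1 2 1, m.1.1 2 2, m.1.1 2 3; m.1.1 3 1, m.1.1 3 2, m.1.1 3 3],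
      by rw [det_fin_three]; simp; linear_combination d⟩ * un (m.1.1 0 1) (m.1.1 0 2) (m.1.1 0 3) 0 0 0 :=
    P_ext (Matrix.ext fun i j => by
      rw [P_mul_apply]
      fin_cases i <;> fin_cases j <;> simp [iota, un_val, m0, m1, m2, m3])
  rw [e]
  exact mul_mem (h6.ge (mem_top _)) (h7 _ _ _)

end Cfsg.Agent.L43
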