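import Cfsg.Agent.H66.L43P
import Cfsg.Agent.L43.Vd
import Cfsg.Agent.H2.Gaschutz

set_option autoImplicit false

/-! Project L43: the normaliser of `E` is a split extension `3³ : SL₃(3)`. -/

namespace Cfsg.Agent.L43

open Subgroup Matrix Blk

variable {G : Type*} [Group G] [Finite G] {z : G} {C Q E : Subgroup G} {π : C →* S2} {g₁ g₂ a b x : G}

namespace SplitAux

/-- coordinates on `E` -/
structure Co (E : Subgroup G) (ε : (Fin 3 → F) → G) : Prop where
  add : ∀ f f', ε (f + f') = ε f * ε f'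
  inj : Function.Injective ε
  mem : ∀ u, u ∈ E ↔ ∃ f, ε f = u

theorem exists_co (h : Hy z C Q π) (k : Ee z C Q E g₁ g₂ a b x) : ∃ ε : (Fin 3 → F) → G, Co E ε ∧
    (∀ c, ε (Pi.single 0 c) = (g₁ * z * g₁⁻¹) ^ c.val) ∧
    (∀ c, ε (Pi.single 1 c) = (g₂ * z * g₂⁻¹) ^ c.val) ∧ ∀ c, ε (Pi.single 2 c) = z ^ c.val := by
  have c3 : ∀ g : G, (g * z * g⁻¹) ^ 3 = 1 := fun g => by rw [conj_pow, h.z3]; simp
  let ε : (Fin 3 → F) → G := fun f =>
    (g₁ * z * g₁⁻¹) ^ (f 0).val * (g₂ * z * g₂⁻¹) ^ (f 1).val * z ^ (f 2).val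
  have hm : ∀ f, ε f ∈ E := fun f =>
    mul_mem (mul_mem (pow_mem k.m1 _) (pow_mem k.m2 _)) (pow_mem k.zE _)
  have ha : ∀ f f', ε (f + f') = ε f * ε f' := fun f f' => by
    have : IsMulCommutative E := ⟨⟨fun u v => Subtype.ext (k.cm _ u.2 _ v.2)⟩⟩
    have e : ∀ a a' b b' c c' : E, a * a' * (b * b') * (c * c') = a * b * c * (a' * b' * c') :=
      fun a a' b b' c c' => by
        open scoped IsMulCommutative in ac_rfl
    simp only [ε, Pi.add_apply, pow_val_add (c3 _), pow_val_add h.z3]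
    exact congrArg Subtype.val (e ⟨_, pow_mem k.m1 _⟩ ⟨_, pow_mem k.m1 _⟩ ⟨_, pow_mem k.m2 _⟩
      ⟨_, pow_mem k.m2 _⟩ ⟨_, pow_mem k.zE _⟩ ⟨_, pow_mem k.zE _⟩)
  have hi : Function.Injective ε := fun f f' e => by
    have e1 : ε (f - f') = 1 := mul_right_cancel (by rw [← ha, sub_add_cancel, one_mul, e])
    obtain ⟨i0, i1⟩ := k.ind ((f - f') 0).val ((f - f') 1).val (by
      rw [eq_inv_of_mul_eq_one_left e1]; exact inv_mem (pow_mem (mem_zpowers z) _))
    rw [← ZMod.natCast_eq_zero_iff, ZMod.natCast_zmod_val] at i0 i1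
    simp only [ε, i0, i1, ZMod.val_zero, pow_zero, one_mul, pow_val_eq_one h.oz] at e1
    exact sub_eq_zero.1 (funext fun i => by fin_cases i <;> assumption)
  refine ⟨ε, ⟨ha, hi, fun u => ⟨fun hu => ?_, fun ⟨f, e⟩ => e ▸ hm f⟩⟩, fun c => by simp [ε],
    fun c => by simp [ε], fun c => by simp [ε]⟩
  obtain ⟨f, e⟩ := (Function.Injective.bijective_of_nat_card_le (f := fun f => (⟨ε f, hm f⟩ : E))
    (fun _ _ e => hi (congrArg Subtype.val e)) (by simp [k.card])).2 ⟨u, hu⟩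
  exact ⟨f, congrArg Subtype.val e⟩

variable {ε : (Fin 3 → F) → G}

omit [Finite G] in
theorem Co.zero (h : Co E ε) : ε 0 = 1 :=
  mul_left_cancel (a := ε 0) (by rw [← h.add, add_zero, mul_one])

/-- the elements inducing a linear map of determinant one -/
def M1 (ε : (Fin 3 → F) → G) : Subgroup G where
  carrier := {m | ∃ A : S3, ∀ f, ε f * m = m * ε (f ᵥ* A.1)}
  one_mem' := ⟨1, fun f => by simp⟩
  mul_mem' := by
    rintro m n ⟨A, hA⟩ ⟨B, hB⟩
    exact ⟨A * B, fun f => by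
      rw [← mul_assoc, hA, mul_assoc, hB, vecMul_vecMul, mul_assoc]; rfl⟩
  inv_mem' := by
    rintro m ⟨A, hA⟩
    refine ⟨A⁻¹, fun f => ?_⟩
    have := hA (f ᵥ* A⁻¹.1)
    rw [vecMul_vecMul, ← Matrix.SpecialLinearGroup.coe_mul, inv_mul_cancel,
      Matrix.SpecialLinearGroup.coe_one, vecMul_one] at this
    rw [eq_inv_mul_iff_mul_eq, ← mul_assoc, ← this, mul_inv_cancel_right]

omit [Finite G] in
theorem Co.uniq (h : Co E ε) {m : G} {A B : Matrix (Fin 3) (Fin 3) F}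
    (hA : ∀ f, ε f * m = m * ε (f ᵥ* A)) (hB : ∀ f, ε f * m = m * ε (f ᵥ* B)) : A = B :=
  Matrix.ext fun i j => by
    simpa using congrFun (h.inj (mul_left_cancel ((hA (Pi.single i 1)).symm.trans (hB _)))) j

omit [Finite G] in
theorem Co.exists_rho (h : Co E ε) : ∃ ρ : M1 ε →* S3, ∀ m f, ε f * m.1 = m.1 * ε (f ᵥ* (ρ m).1) :=
  ⟨MonoidHom.mk' (fun m => m.2.choose) fun m n => Subtype.ext (h.uniq (m * n).2.choose_spec fun f => by
    rw [coe_mul, ← mul_assoc, m.2.choose_spec, mul_assoc, n.2.choose_spec, vecMul_vecMul, mul_assoc]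
    rfl), fun m => m.2.choose_spec⟩

omit [Finite G] in
theorem Co.mem_M1 (h : Co E ε) {m : G} (h1 : ∀ u ∈ E, m⁻¹ * u * m ∈ E) (h9 : m ^ 9 = 1) :
    m ∈ M1 ε := by
  choose L hL using fun f => (h.mem _).1 (h1 _ ((h.mem _).2 ⟨f, rfl⟩))
  let A := (LinearMap.toMatrix' ((AddMonoidHom.mk' L fun f f' => h.inj (by
    rw [h.add, hL, hL, hL, h.add]; group)).toZModLinearMap 3))ᵀ
  have hA : ∀ f, ε f * m = m * ε (f ᵥ* A) := fun f => by
    rw [vecMul_transpose, LinearMap.toMatrix'_mulVec]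
    change _ = m * ε (L f)
    rw [hL]; group
  have hn : ∀ n : ℕ, ∀ f, ε f * m ^ n = m ^ n * ε (f ᵥ* A ^ n) := fun n => by
    induction n with
    | zero => simp
    | succ n ih => intro f; rw [pow_succ, ← mul_assoc, ih, mul_assoc, hA, vecMul_vecMul, ← pow_succ A,
        mul_assoc]
  have := congrArg det (h.uniq (hn 9) (B := 1) fun f => by simp [h9])
  rw [det_pow, det_one] at this
  exact ⟨⟨A, (by decide : ∀ d : F, d ^ 9 = 1 → d = 1) _ this⟩, hA⟩

omit [Finite G] in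
theorem C_le (h : Hy z C Q π) (k : Ee z C Q E g₁ g₂ a b x) (c : Co E ε) : C ≤ M1 ε := by
  have k1 : ∀ m : C, π m ^ 3 = 1 → m ∈ (M1 ε).subgroupOf C := fun m hm =>
    c.mem_M1 (fun u hu => (mem_normalizer_iff''.1 (k.CE m.2) u).1 hu) (by
      rw [show 9 = 3 * 3 from rfl, pow_mul]
      exact h.exp _ ((h.ker (m ^ 3)).1 (by rw [map_pow, hm])))
  have k2 := H9.sl_subgroup_eq_top_of_transvection (((M1 ε).subgroupOf C).map π) fun i j hij t => by
    obtain ⟨m, hm⟩ := h.sur (.transvection hij t)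
    refine ⟨m, k1 m ?_, hm⟩
    rw [hm, pow_three, ← Matrix.SpecialLinearGroup.transvection_add,
      ← Matrix.SpecialLinearGroup.transvection_add, (by decide : ∀ t : F, t + (t + t) = 0) t,
      Matrix.SpecialLinearGroup.transvection_coeff_zero]
  rw [← subgroupOf_eq_top, ← comap_map_eq_self (f := π) fun m hm => k1 m (by rw [hm, one_pow]), k2,
    comap_top]

omit [Finite G] in
theorem mem_ker (k : Ee z C Q E g₁ g₂ a b x) (c : Co E ε) {ρ : M1 ε →* S3}
    (hρ : ∀ m f, ε f * m.1 = m.1 * ε (f ᵥ* (ρ m).1)) {m : M1 ε} : ρ m = 1 ↔ m.1 ∈ E := by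
  refine ⟨fun e => k.cen _ fun u hu => ?_, fun e => Subtype.ext (c.uniq (hρ m) fun f => ?_)⟩
  · obtain ⟨f, rfl⟩ := (c.mem u).1 hu
    rw [hρ, e, Matrix.SpecialLinearGroup.coe_one, vecMul_one]
  · rw [Matrix.SpecialLinearGroup.coe_one, vecMul_one]
    exact k.cm _ ((c.mem _).2 ⟨f, rfl⟩) _ e

omit [Finite G] in
theorem tv_mem (h : Hy z C Q π) (k : Ee z C Q E g₁ g₂ a b x) (c : Co E ε) {ρ : M1 ε →* S3}
    (hρ : ∀ m f, ε f * m.1 = m.1 * ε (f ᵥ* (ρ m).1)) {g : G} {i : Fin 3}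
    (h1 : ∀ u ∈ E, g⁻¹ * u * g ∈ Q) (h2 : ∀ t, ε (Pi.single i t) = (g * z * g⁻¹) ^ t.val)
    {j : Fin 3} (hj : j ≠ i) (t : F) : Matrix.SpecialLinearGroup.transvection hj t ∈ ρ.range := by
  have k1 : ∀ q, g⁻¹ * q * g ∈ Q → ∀ f, ∃ t, ε f * q = q * ε (Pi.single i t + f) := fun q hq f => by
    obtain ⟨t, ht⟩ := (mem_zp3 h.oz).1 (h.comm _ (inv_mem hq) _ (h1 _ ((c.mem _).2 ⟨f, rfl⟩)))
    exact ⟨t, by rw [c.add, h2, conj_pow, ← ht]; group⟩
  let φ := (MulAut.conj g⁻¹).toMonoidHom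
  have hφ : ∀ q, φ q = g⁻¹ * q * g := fun q => by simp [φ]
  have hQ : Q.comap φ ≤ M1 ε := fun q hq => by
    rw [mem_comap, hφ] at hq
    refine c.mem_M1 (fun u hu => ?_) ?_
    · obtain ⟨f, rfl⟩ := (c.mem u).1 hu
      obtain ⟨t, ht⟩ := k1 q hq f
      exact (c.mem _).2 ⟨_, by rw [mul_assoc, ht, inv_mul_cancel_left]⟩
    · have := h.exp _ hq
      rw [← hφ, ← map_pow, map_eq_one_iff φ (MulAut.conj g⁻¹).injective] at this
      rw [show 9 = 3 * 3 from rfl, pow_mul, this, one_pow]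
  have hE : E ≤ Q.comap φ := fun u hu => by rw [mem_comap, hφ]; exact h1 u hu
  have c9 : Nat.card (((Q.comap φ).subgroupOf (M1 ε)).map ρ) = 9 := by
    have e : ρ.ker = E.subgroupOf (M1 ε) := Subgroup.ext fun m => mem_ker k c hρ
    have := (E.subgroupOf (Q.comap φ)).card_mul_index
    rw [Nat.card_congr (subgroupOfEquivOfLe hE).toEquiv, k.card,
      ← card_map_of_injective (f := φ) (MulAut.conj g⁻¹).injective,
      map_comap_eq_self_of_surjective (MulAut.conj g⁻¹).surjective, h.card] at this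
    rw [← relIndex_ker, e, relIndex_subgroupOf hQ, relIndex]
    omega
  let T : Set S3 := {A | ∀ j l, l ≠ i ∨ j = i → A.1 j l = (1 : Matrix (Fin 3) (Fin 3) F) j l}
  have hT : T.ncard ≤ 9 := by
    refine (Nat.card_le_card_of_injective (fun (A : T) (j : {j // j ≠ i}) => A.1.1 j i)
      fun A B e => Subtype.ext (Subtype.ext (Matrix.ext fun j l => ?_))).trans (by simp)
    by_cases hh : l ≠ i ∨ j = i
    · rw [A.2 j l hh, B.2 j l hh]
    · push Not at hh
      rw [hh.1]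
      exact congrFun e ⟨j, hh.2⟩
  have := Set.eq_of_subset_of_ncard_le (s := (((Q.comap φ).subgroupOf (M1 ε)).map ρ : Set S3))
    (t := T) (by
      rintro _ ⟨m, hm, rfl⟩ j l hh
      have hq : g⁻¹ * m.1 * g ∈ Q := hφ _ ▸ hm
      rcases hh with hh | rfl
      · obtain ⟨t, ht⟩ := k1 _ hq (Pi.single j 1)
        simpa [hh, one_apply, Pi.single_apply, eq_comm] using
          congrFun (c.inj (mul_left_cancel ((hρ m _).symm.trans ht))) l
      · have : ε (Pi.single j 1) * m.1 = m.1 * ε (Pi.single j 1) := by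
          rw [h2, ZMod.val_one, pow_one]
          calc _ = g * (z * (g⁻¹ * m.1 * g)) * g⁻¹ := by group
            _ = _ := by rw [← h.zc hq]; group
        simpa [one_apply, Pi.single_apply, eq_comm] using
          congrFun (c.inj (mul_left_cancel ((hρ m _).symm.trans this))) l)
    (hT.trans c9.ge)
  refine map_le_range _ _ (this.ge fun j' l hh => ?_)
  rw [Matrix.SpecialLinearGroup.transvection_coe, Matrix.add_apply, single_apply_of_ne, add_zero]
  rintro ⟨rfl, rfl⟩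
  exact hh.elim (· rfl) hj

theorem exists_A (h : Hy z C Q π) (k : Ee z C Q E g₁ g₂ a b x) :
    ∃ A : Subgroup G, A ≤ C ∧ Nat.card A = 27 ∧ ∀ u ∈ A, u ∈ E → u = 1 := by
  have a3 := h.exp a k.aQ
  have b3 := h.exp b k.bQ
  have ab : Commute a b := k.ab
  have xb : Commute x b := k.xb
  have e1 : ∀ n : ℕ, x ^ n * a = a * b ^ n * x ^ n := fun n => by
    induction n with
    | zero => simp
    | succ n ih =>
      rw [pow_succ', mul_assoc, ih, ← mul_assoc, ← mul_assoc, mul_inv_eq_iff_eq_mul.1 k.xa,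
        mul_assoc _ x, (xb.pow_right n).eq, ← ab.eq, pow_succ' b]
      simp only [mul_assoc]
  have e2 : ∀ n i : ℕ, x ^ n * a ^ i = a ^ i * b ^ (n * i) * x ^ n := fun n i => by
    induction i with
    | zero => simp
    | succ i ih =>
      rw [pow_succ, ← mul_assoc, ih, mul_assoc, e1, mul_add_one, pow_add, mul_assoc (a ^ i),
        ← mul_assoc (b ^ _), ← mul_assoc (b ^ _), ← (ab.pow_right _).eq]
      simp only [mul_assoc]
  let A₀ : Submonoid G :=
    { carrier := {g | ∃ i j l : ℕ, g = a ^ i * b ^ j * x ^ l}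
      one_mem' := ⟨0, 0, 0, by simp⟩
      mul_mem' := by
        rintro _ _ ⟨i, j, l, rfl⟩ ⟨i', j', l', rfl⟩
        refine ⟨i + i', j + l * i' + j', l + l', ?_⟩
        calc _ = a ^ i * b ^ j * (x ^ l * a ^ i') * b ^ j' * x ^ l' := by simp only [mul_assoc]
          _ = a ^ i * (b ^ j * a ^ i') * b ^ (l * i') * (x ^ l * b ^ j') * x ^ l' := by
            rw [e2]; simp only [mul_assoc]
          _ = _ := by
            rw [← (ab.pow_pow _ _).eq, (xb.pow_pow _ _).eq]; simp only [pow_add, mul_assoc] }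
  let A : Subgroup G :=
    { toSubmonoid := A₀
      inv_mem' := fun {g} hg => Submonoid.powers_le.2 hg
        (mem_powers_iff_mem_zpowers.2 (inv_mem (mem_zpowers g))) }
  have hx : ∀ i j l : ℕ, a ^ i * b ^ j * x ^ l ∈ Q → 3 ∣ l := fun i j l hl => by
    rw [mul_mem_cancel_left (mul_mem (pow_mem k.aQ i) (pow_mem k.bQ j)), pow_eq_pow_mod l k.x3] at hl
    by_contra c
    rcases (by omega : l % 3 = 1 ∨ l % 3 = 2) with e | e <;> rw [e] at hl
    · exact k.xQ (by rwa [pow_one] at hl)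
    · exact k.xQ (by rw [← inv_mem_iff, ← eq_inv_of_mul_eq_one_left ((pow_succ x 2).symm.trans k.x3)]
                     exact hl)
  have hE : ∀ i j l : ℕ, a ^ i * b ^ j * x ^ l ∈ E → 3 ∣ i ∧ 3 ∣ j ∧ 3 ∣ l := fun i j l hl => by
    obtain ⟨l, rfl⟩ := hx i j l (k.EQ hl)
    rw [pow_mul, k.x3, one_pow, mul_one] at hl
    exact ⟨(k.ind' i j hl).1, (k.ind' i j hl).2, dvd_mul_right _ _⟩
  refine ⟨A, ?_, ?_, ?_⟩
  · rintro _ ⟨i, j, l, rfl⟩
    exact mul_mem (mul_mem (pow_mem (h.QC k.aQ) i) (pow_mem (h.QC k.bQ) j)) (pow_mem k.xC l)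
  · rw [← Nat.card_congr (Equiv.ofBijective (fun p : Fin 3 × Fin 3 × Fin 3 =>
      (⟨_, p.1, p.2.1, p.2.2, rfl⟩ : A)) ⟨?_, ?_⟩)]
    · simp
    · rintro ⟨i, j, l⟩ ⟨i', j', l'⟩ e
      replace e : a ^ i.1 * b ^ j.1 * x ^ l.1 = a ^ i'.1 * b ^ j'.1 * x ^ l'.1 :=
        congrArg Subtype.val e
      have := hE (2 * i' + i) (2 * j' + j) (l + 2 * l') (by
        have : a ^ (2 * i'.1 + i) * b ^ (2 * j'.1 + j) * x ^ (l.1 + 2 * l') =
            a ^ (2 * i'.1) * b ^ (2 * j'.1) * (a ^ i.1 * b ^ j.1 * x ^ l.1) * x ^ (2 * l'.1) := by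
          rw [pow_add, pow_add, pow_add, mul_assoc (a ^ _) (a ^ _), ← mul_assoc (a ^ i.1),
            (ab.pow_pow _ _).eq]
          simp only [mul_assoc]
        rw [this, e, mul_assoc (a ^ _) (b ^ _), ← mul_assoc (b ^ _), ← mul_assoc (b ^ _),
          ← (ab.pow_pow _ _).eq, mul_assoc, mul_assoc, mul_assoc, mul_assoc, ← pow_add x,
          ← mul_assoc (b ^ _), ← pow_add b, ← mul_assoc (a ^ _), ← pow_add a,
          show 2 * i'.1 + i' = 3 * i' by ring, show 2 * j'.1 + j' = 3 * j' by ring,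
          show l'.1 + 2 * l' = 3 * l' by ring, pow_mul, pow_mul, pow_mul, a3, b3, k.x3]
        simp)
      simp only [Prod.mk.injEq, Fin.ext_iff]
      omega
    · rintro ⟨_, i, j, l, rfl⟩
      exact ⟨(⟨i % 3, by omega⟩, ⟨j % 3, by omega⟩, ⟨l % 3, by omega⟩), Subtype.ext (by
        simp only [← pow_eq_pow_mod _ a3, ← pow_eq_pow_mod _ b3, ← pow_eq_pow_mod _ k.x3])⟩
  · rintro _ ⟨i, j, l, rfl⟩ hu
    obtain ⟨⟨i, rfl⟩, ⟨j, rfl⟩, ⟨l, rfl⟩⟩ := hE i j l hu
    simp [pow_mul, a3, b3, k.x3]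

end SplitAux

open SplitAux

/-- notes/L43.md, section Split -/
theorem Hy.exists_md (h : Hy z C Q π) (k : Ee z C Q E g₁ g₂ a b x) :
    ∃ φ : P →* G, Md φ ∧ φ z0 = z ∧ φ (un 0 1 0 0 0 0) = g₂ * z * g₂⁻¹ ∧ φ (un 0 0 0 0 1 0) ∈ Q := by
  obtain ⟨ε, c, c0, c1, c2⟩ := exists_co h k
  obtain ⟨ρ, hρ⟩ := c.exists_rho
  have hC := C_le h k c
  have hs : Function.Surjective ρ := MonoidHom.range_eq_top.1
    (H9.sl_subgroup_eq_top_of_transvection _ fun j i hj t => by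
      fin_cases i
      · exact tv_mem h k c hρ k.h1 c0 hj t
      · exact tv_mem h k c hρ k.h2 c1 hj t
      · exact tv_mem h k c hρ (g := 1) (fun u hu => by simpa using k.EQ hu) (by simpa using c2) hj t)
  obtain ⟨A, a1, a2, a3⟩ := exists_A h k
  have hE : E ≤ M1 ε := k.EQ.trans (h.QC.trans hC)
  have e : ρ.ker = E.subgroupOf (M1 ε) := Subgroup.ext fun m => mem_ker k c hρ
  have hA : A.subgroupOf (M1 ε) ⊓ ρ.ker = ⊥ := (eq_bot_iff_forall _).2 fun m hm =>
    Subtype.ext (a3 _ hm.1 ((mem_ker k c hρ).1 hm.2))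
  have : IsMulCommutative ρ.ker := ⟨⟨fun u v => Subtype.ext (Subtype.ext
    (k.cm _ ((mem_ker k c hρ).1 u.2) _ ((mem_ker k c hρ).1 v.2)))⟩⟩
  obtain ⟨H, hH⟩ := H2.gaschutz_exists ρ.ker (ρ.ker ⊔ A.subgroupOf (M1 ε)) le_sup_left (by
    have h1 := ((A.subgroupOf (M1 ε)).map ρ).card_mul_index
    rw [← relIndex_ker, ← inf_relIndex_right, inf_comm, hA, relIndex_bot_left,
      Nat.card_congr (subgroupOfEquivOfLe (a1.trans hC)).toEquiv, a2, card_S3, index_map,
      MonoidHom.range_eq_top.2 hs, index_top, mul_one, sup_comm] at h1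
    rw [show (ρ.ker ⊔ A.subgroupOf (M1 ε)).index = 208 by omega, e,
      Nat.card_congr (subgroupOfEquivOfLe hE).toEquiv, k.card]
    decide) _ le_sup_right hA rfl
  let τ := MulEquiv.ofBijective (ρ.comp H.subtype) ⟨(injective_iff_map_eq_one _).2 fun m hm =>
    Subtype.ext (disjoint_def.1 hH.disjoint hm m.2), fun B => by
      obtain ⟨m, rfl⟩ := hs B
      obtain ⟨⟨u, v⟩, rfl⟩ := hH.2 m
      exact ⟨v, by rw [map_mul, show ρ u = 1 from u.2, one_mul]; rfl⟩⟩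
  let σ := H.subtype.comp τ.symm.toMonoidHom
  have hσ : ∀ B, ρ (σ B) = B := τ.apply_symm_apply
  have εE : ∀ f, ε f ∈ E := fun f => (c.mem _).2 ⟨f, rfl⟩
  let φ : P →* G := MonoidHom.mk' (fun m => (σ (lo m)).1 * ε (row m)) fun m n => by
    rw [map_mul, map_mul, row_mul, c.add, coe_mul, mul_assoc, mul_assoc, ← mul_assoc (ε _), hρ, hσ]
    simp only [mul_assoc]
  have hφ : ∀ m, φ m = (σ (lo m)).1 * ε (row m) := fun _ => rfl
  have h1 : ∀ m, lo m = 1 → φ m = ε (row m) := fun m hm => by rw [hφ, hm, map_one, coe_one, one_mul]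
  have hz : φ z0 = z := by
    rw [h1 _ (by decide), show row z0 = Pi.single 2 1 by decide, c2, ZMod.val_one, pow_one]
  have hr : M1 ε ≤ φ.range := fun m hm => by
    obtain ⟨f, hf⟩ := (c.mem _).1 ((mem_ker k c hρ (m := (σ (ρ ⟨m, hm⟩))⁻¹ * ⟨m, hm⟩)).1 (by
      rw [map_mul, map_inv, hσ, inv_mul_cancel]))
    exact ⟨Blk.mk (ρ ⟨m, hm⟩) f, by rw [hφ, lo_mk, row_mk, hf]; simp⟩
  refine ⟨φ, ⟨(injective_iff_map_eq_one _).2 fun m hm => ?_, fun g hg => ?_⟩, hz, ?_, ?_⟩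
  · have : lo m = 1 := by
      rw [← hσ (lo m), mem_ker k c hρ, eq_inv_of_mul_eq_one_left ((hφ m).symm.trans hm)]
      exact inv_mem (εE _)
    rw [h1 m this, ← c.zero] at hm
    exact Blk.ext (this.trans (map_one _).symm) ((c.inj hm).trans (by decide))
  · rw [hz] at hg
    obtain ⟨t, ht⟩ := (mem_zp3 h.oz).1 hg
    rcases (by decide : ∀ t : F, t = 0 ∨ t = 1 ∨ t.val = 2) t with rfl | rfl | e
    · have : z = 1 := by simpa using ht
      exact absurd h.oz (by simp [this])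
    · exact hr (hC ((h.memC g).2 (by rw [← mul_inv_eq_iff_eq_mul, ht, ZMod.val_one, pow_one])))
    · have := congrArg φ (by decide : t1 * z0 ^ 2 = z0 * t1)
      rw [map_mul, map_mul, map_pow, hz] at this
      refine (mul_mem_cancel_left (show φ t1 ∈ φ.range from ⟨t1, rfl⟩)).1 (hr (hC ((h.memC _).2 ?_)))
      rw [← mul_assoc, ← this, ← e, ← ht]; group
  · rw [h1 _ (by decide), show row (un 0 1 0 0 0 0) = Pi.single 1 1 by decide, c1, ZMod.val_one,
      pow_one]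
  · refine k.ker _ ((h.memC _).2 ?_) fun u hu => ?_
    · rw [← hz, ← map_mul, ← map_mul]; exact congrArg φ (by decide)
    · obtain ⟨f, rfl⟩ := (c.mem u).1 hu
      have e1 := hρ (σ (lo (un 0 0 0 0 1 0))) (Pi.single 2 (-f 0) + f)
      rw [hσ, (by decide : ∀ f : Fin 3 → F,
        (Pi.single 2 (-f 0) + f) ᵥ* (lo (un 0 0 0 0 1 0)).1 = f) f] at e1
      rw [hφ, show row (un 0 0 0 0 1 0) = 0 by decide, c.zero, mul_one, ← e1, mul_inv_cancel_right,
        c.add, mul_inv_cancel_right, c2]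
      exact pow_mem (mem_zpowers z) _

end Cfsg.Agent.L43
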