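import Cfsg.Agent.H76.InvInd
import Mathlib.Analysis.SpecialFunctions.Complex.CircleAddChar
import Mathlib.GroupTheory.SpecificGroups.Alternating

/-! The character theory for `t162` (notes/L43.md, section T162). -/

set_option autoImplicit false
set_option synthInstance.maxSize 2000

open scoped ComplexConjugate
open Cfsg Cfsg.Agent.H49 Cfsg.Agent.H54 Cfsg.Agent.H52 Cfsg.Agent.H76 Subgroup

namespace Cfsg.Agent.L43.TA

section Core

variable {G : Type*} [Group G] [Fintype G] {H : Subgroup G} {s : G}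

theorem orth {φ ψ : G → ℂ} (hφ : IsDirr H φ) (hψ : IsDirr H ψ) {x y : G} (h1 : φ x ≠ ψ x) (h2 : φ y ≠ -ψ y) :
    dot H φ ψ = 0 :=
  ((dirr_trichotomy hφ hψ).resolve_left fun e => h1 (congrFun e x)).resolve_left fun e => h2 (congrFun e y)

theorem exists_opp {a b c d : G → ℂ} (ha : IsDirr H a) (hb : IsDirr H b) (hc : IsDirr H c) (hd : IsDirr H d)
    (h : dot H (a + b) (c + d) = -1) : a = -c ∨ a = -d ∨ b = -c ∨ b = -d := by
  by_contra hh
  push Not at hh
  have k : ∀ {x y : G → ℂ}, IsDirr H x → IsDirr H y → x ≠ -y → dot H x y = 1 ∨ dot H x y = 0 :=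
    fun {x y} hx hy n => (dirr_trichotomy hx hy).imp (fun e : x = y => e ▸ dot_dirr_self hx) fun e => e.resolve_left n
  rw [dot_add_left, dot_add_right, dot_add_right] at h
  rcases k ha hc hh.1 with e1 | e1 <;> rcases k ha hd hh.2.1 with e2 | e2 <;>
    rcases k hb hc hh.2.2.1 with e3 | e3 <;> rcases k hb hd hh.2.2.2 with e4 | e4 <;>
    rw [e1, e2, e3, e4] at h <;> norm_num at h

theorem arith {a b d α β δ : ℂ} (ha : a ≠ 0) (hb : b ≠ 0) (hd : d ≠ 0) (h1 : 1 + a + b = 0) (h2 : 1 + α + β = 0)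
    (h3 : 1 - b + d = 0) (h4 : 1 - β + δ = 0) (hX : 1 + α * α / a + β * β / b ≠ 0)
    (e : 1 + α * α / a + β * β / b = 3 * (1 - β * β / b + δ * δ / d)) : a = 1 := by
  obtain rfl : a = -1 - b := by linear_combination h1
  obtain rfl : α = -1 - β := by linear_combination h2
  obtain rfl : d = b - 1 := by linear_combination h3
  obtain rfl : δ = β - 1 := by linear_combination h4
  have n : (b - β) ^ 2 ≠ 0 := fun e' => hX (by field_simp; linear_combination -e')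
  field_simp at e
  have : (b - β) ^ 2 * (b + 2) = 0 := by linear_combination (1 / 2 : ℂ) * e
  linear_combination -(mul_eq_zero.1 this).resolve_left n

variable (hs : s ∈ H) (ss : s * s = 1) (hinv : ∀ x ∈ H, x * x = 1 → x = 1 ∨ ∃ g ∈ H, x = g * s * g⁻¹)
  (hTI : ∀ g, ∀ a ∈ H, a * a ≠ 1 → g * a * g⁻¹ ∈ H → g ∈ H)
include hs ss hinv hTI

omit hs ss hTI in
theorem cfon {θ : G → ℂ} (hθ : θ ∈ CF H) (h1 : θ 1 = 0) (h2 : θ s = 0) : θ ∈ CFon H {x | x ∈ H ∧ x * x ≠ 1} :=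
  ⟨hθ, fun x hx => by
    by_cases xH : x ∈ H
    · rcases hinv x xH (by_contra fun e => hx ⟨xH, e⟩) with rfl | ⟨g, hg, rfl⟩
      exacts [h1, (CF_conj hθ hg s).trans h2]
    · exact CF_supp hθ x xH⟩

omit hs ss in
theorem res_ind {θ : G → ℂ} (hθ : θ ∈ CF H) (h1 : θ 1 = 0) (h2 : θ s = 0) {x : G} (hx : x ∈ H) :
    ind ⊤ H θ x = θ x := by
  have c := cfon hinv hθ h1 h2
  by_cases xx : x * x = 1
  · rw [c.2 x fun e => e.2 xx]
    exact ind_eq_zero_of_not_conj fun g _ _ => c.2 _ fun e => e.2 (by rw [conj_mul, xx]; simp)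
  · exact ind_apply_of_TI le_top c (fun g _ a ha e => hTI g a ha.1 ha.2 e.1) ⟨hx, xx⟩ hx

theorem J2_TI (s1 : s ≠ 1) {θ : G → ℂ} (hθ : θ ∈ CF H) (h1 : θ 1 = 0) (h2 : θ s = 0) :
    (Nat.card ↥(H ⊓ 𝒞[s]) : ℂ) ^ 2 * J2 ⊤ s s (ind ⊤ H θ) =
      H.relIndex ⊤ * (Nat.card ↥(⊤ ⊓ 𝒞[s]) : ℂ) ^ 2 * J2 H s s θ := by
  have c := cfon hinv hθ h1 h2
  have sub : {t | ∃ x ∈ H, t = x * s * x⁻¹} ⊆ {t | ∃ x ∈ (⊤ : Subgroup G), t = x * s * x⁻¹} :=
    fun t ⟨x, _, e⟩ => ⟨x, mem_top x, e⟩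
  have key : ∀ t ∈ {t | ∃ x ∈ (⊤ : Subgroup G), t = x * s * x⁻¹}, ∀ t' ∈ {t | ∃ x ∈ (⊤ : Subgroup G),
      t = x * s * x⁻¹}, θ (t * t') ≠ 0 → t ∈ {t | ∃ x ∈ H, t = x * s * x⁻¹} ∧
        t' ∈ {t | ∃ x ∈ H, t = x * s * x⁻¹} := by
    have sq : ∀ t ∈ {t | ∃ x ∈ (⊤ : Subgroup G), t = x * s * x⁻¹}, t * t = 1 ∧ t ≠ 1 := by
      rintro _ ⟨x, -, rfl⟩
      exact ⟨by rw [conj_mul, ss]; simp, by simpa using s1⟩
    intro t ht t' ht' n
    have m : t * t' ∈ H ∧ t * t' * (t * t') ≠ 1 := by_contra fun e => n (c.2 _ e)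
    have tH : t ∈ H := hTI t _ m.1 m.2 (by
      rw [← mul_assoc, (sq t ht).1, one_mul, ← inv_eq_of_mul_eq_one_right (sq t' ht').1, ← mul_inv_rev]
      exact inv_mem m.1)
    exact ⟨(hinv t tH (sq t ht).1).resolve_left (sq t ht).2,
      (hinv t' ((mul_mem_cancel_left tH).1 m.1) (sq t' ht').1).resolve_left (sq t' ht').2⟩
  rw [J2_ind le_top s s (mem_top s) (mem_top s), res_eq_self (CF_supp hθ), J2_eq, J2_eq,
    ← sum_fin_subset sub fun t ht hn => Finset.sum_eq_zero fun t' ht' =>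
      by_contra fun e => hn (key t ht t' (mem_fin.1 ht') e).1,
    Finset.sum_congr rfl fun t ht => (sum_fin_subset sub fun t' ht' hn =>
      by_contra fun e => hn (key t (sub (mem_fin.1 ht)) t' ht' e).2).symm]
  ring

theorem core {e r c : G → ℂ} (he : IsDirr H e) (hr : IsDirr H r) (hc : IsDirr H c) (e1 : e 1 = 1)
    (es : e s = -1) (r1 : r 1 = 2) (rs : r s = 0) (c1 : c 1 = 3) (cs : c s = 1) :
    ∃ A, IsLin ⊤ A ∧ res H A = e := by
  have s1 : s ≠ 1 := fun h => by rw [h, e1] at es; norm_num at es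
  have ho := dirr_of_irr (cf1_irr H)
  have o1 := cf1_one H
  have os := cf1_apply_of_mem hs
  have oe : dot H (cf1 H) e = 0 := orth ho he (x := s) (y := 1) (by rw [os, es]; norm_num) (by rw [o1, e1]; norm_num)
  have or : dot H (cf1 H) r = 0 := orth ho hr (x := 1) (y := 1) (by rw [o1, r1]; norm_num) (by rw [o1, r1]; norm_num)
  have oc : dot H (cf1 H) c = 0 := orth ho hc (x := 1) (y := 1) (by rw [o1, c1]; norm_num) (by rw [o1, c1]; norm_num)
  have er : dot H e r = 0 := orth he hr (x := 1) (y := 1) (by rw [e1, r1]; norm_num) (by rw [e1, r1]; norm_num)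
  have ec : dot H e c = 0 := orth he hc (x := 1) (y := 1) (by rw [e1, c1]; norm_num) (by rw [e1, c1]; norm_num)
  have rc : dot H r c = 0 := orth hr hc (x := 1) (y := 1) (by rw [r1, c1]; norm_num) (by rw [r1, c1]; norm_num)
  have v1 : cf1 H + e - r ∈ vchar H := sub_mem (add_mem (cf1_vchar H) (dirr_vchar he)) (dirr_vchar hr)
  have v2 : cf1 H + r - c ∈ vchar H := sub_mem (add_mem (cf1_vchar H) (dirr_vchar hr)) (dirr_vchar hc)
  have a1 : (cf1 H + e - r) 1 = 0 := by simp [o1, e1, r1]; norm_num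
  have a2 : (cf1 H + e - r) s = 0 := by simp [os, es, rs]
  have b1 : (cf1 H + r - c) 1 = 0 := by simp [o1, c1, r1]; norm_num
  have b2 : (cf1 H + r - c) s = 0 := by simp [os, cs, rs]
  have iso : ∀ {θ θ' : G → ℂ}, θ ∈ vchar H → θ 1 = 0 → θ s = 0 → θ' ∈ vchar H → θ' 1 = 0 → θ' s = 0 →
      dot ⊤ (ind ⊤ H θ - cf1 ⊤) (ind ⊤ H θ' - cf1 ⊤) = dot H θ θ' - dot H θ (cf1 H) - dot H (cf1 H) θ' + 1 :=
    fun {θ θ'} h h1 h2 h' h1' h2' => by
      rw [dot_sub_left, dot_sub_right, dot_sub_right, dot_cf1_self, dot_ind_cf1 le_top,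
        dot_ind_right_res le_top _ (cf1_mem_CF _), res_cf1 le_top, dot_ind_ind_of_TI le_top
          (fun x _ => (cfon hinv (vchar_CF h) h1 h2).2 x) (cfon hinv (vchar_CF h') h1' h2')
          fun g _ a ha e => hTI g a ha.1 ha.2 e.1]
      ring
  have i1 := iso v1 a1 a2 v1 a1 a2
  have i2 := iso v2 b1 b2 v2 b1 b2
  have i3 := iso v1 a1 a2 v2 b1 b2
  simp only [dot_sub_left H, dot_sub_right H, dot_add_left H, dot_add_right H, dot_cf1_self, dot_dirr_self he,
    dot_dirr_self hr, dot_dirr_self hc, oe, or, oc, er, ec, rc, dot_eq_zero_symm oe, dot_eq_zero_symm or,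
    dot_eq_zero_symm oc, dot_eq_zero_symm er, dot_eq_zero_symm ec, dot_eq_zero_symm rc] at i1 i2 i3
  obtain ⟨α, β, hα, hβ, -, E1⟩ := vchar_nrm_two (sub_mem (ind_vchar le_top v1) (cf1_vchar ⊤))
    (nrm_of_dot (r := 2) (by rw [i1]; norm_num))
  obtain ⟨γ, δ, hγ, hδ, -, E2⟩ := vchar_nrm_two (sub_mem (ind_vchar le_top v2) (cf1_vchar ⊤))
    (nrm_of_dot (r := 2) (by rw [i2]; norm_num))
  rw [E1, E2] at i3
  obtain ⟨A, B, D, hA, hB, hD, F1, F2⟩ : ∃ A B D, IsDirr ⊤ A ∧ IsDirr ⊤ B ∧ IsDirr ⊤ D ∧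
      ind ⊤ H (cf1 H + e - r) = cf1 ⊤ + A + B ∧ ind ⊤ H (cf1 H + r - c) = cf1 ⊤ - B + D := by
    rw [sub_eq_iff_eq_add] at E1 E2
    rcases exists_opp hα hβ hγ hδ (by rw [i3]; norm_num) with h | h | h | h
    · exact ⟨β, α, δ, hβ, hα, hδ, by rw [E1]; abel, by rw [E2, h]; abel⟩
    · exact ⟨β, α, γ, hβ, hα, hγ, by rw [E1]; abel, by rw [E2, h]; abel⟩
    · exact ⟨α, β, δ, hα, hβ, hδ, by rw [E1]; abel, by rw [E2, h]; abel⟩
    · exact ⟨α, β, γ, hα, hβ, hγ, by rw [E1]; abel, by rw [E2, h]; abel⟩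
  have R1 := fun {x : G} => res_ind hinv hTI (vchar_CF v1) a1 a2 (x := x)
  have R2 := fun {x : G} => res_ind hinv hTI (vchar_CF v2) b1 b2 (x := x)
  have j1 := J2_TI hs ss hinv hTI s1 (vchar_CF v1) a1 a2
  have j2 := J2_TI hs ss hinv hTI s1 (vchar_CF v2) b1 b2
  have g1 := R1 (one_mem H)
  have g2 := R1 hs
  have g3 := R2 (one_mem H)
  have g4 := R2 hs
  rw [F1] at j1 g1 g2 R1
  rw [F2] at j2 g3 g4
  simp only [map_add, map_sub, J2_dirr ho hs hs, J2_dirr he hs hs, J2_dirr hr hs hs, J2_dirr hc hs hs,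
    J2_dirr (dirr_of_irr (cf1_irr ⊤)) (mem_top s) (mem_top s), J2_dirr hA (mem_top s) (mem_top s),
    J2_dirr hB (mem_top s) (mem_top s), J2_dirr hD (mem_top s) (mem_top s), o1, os, e1, es, r1, rs, c1, cs,
    cf1_one, cf1_apply_of_mem (mem_top s)] at j1 j2
  rw [a1] at g1
  rw [a2] at g2
  rw [b1] at g3
  rw [b2] at g4
  simp only [cf1_top, Pi.add_apply, Pi.sub_apply] at g1 g2 g3 g4
  have n1 := card_ne_zero' (H ⊓ 𝒞[s])
  have n2 := card_ne_zero' (⊤ ⊓ 𝒞[s])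
  have n3 := card_ne_zero' H
  have n4 := card_ne_zero' (⊤ : Subgroup G)
  have n5 := relIndex_ne_zero' H ⊤
  have A1 : A 1 = 1 := arith (dirr_one_ne_zero hA) (dirr_one_ne_zero hB) (dirr_one_ne_zero hD) g1 g2 g3 g4
    (fun h => mul_ne_zero (mul_ne_zero (mul_ne_zero n5 (pow_ne_zero 2 n2)) (pow_ne_zero 2 n3)) two_ne_zero (by
      linear_combination (Nat.card ↥(H ⊓ 𝒞[s]) : ℂ) ^ 2 * (Nat.card (⊤ : Subgroup G) : ℂ) ^ 2 * h - j1))
    (mul_left_cancel₀ (mul_ne_zero (pow_ne_zero 2 n1) (pow_ne_zero 2 n4)) (by linear_combination j1 - 3 * j2))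
  have lA : IsLin ⊤ A := ⟨irr_of_dirr hA (by rw [A1]; norm_num), A1⟩
  have iB : -B ∈ irr (⊤ : Subgroup G) := irr_of_dirr (dirr_neg hB) (by
    rw [show (-B) 1 = 2 by rw [Pi.neg_apply]; linear_combination A1 - g1]; norm_num)
  have ie : e ∈ irr H := irr_of_dirr he (by rw [e1]; norm_num)
  refine ⟨A, lA, eq_of_dot_irr_ne_zero (lin_res le_top lA).1 ie fun h => ?_⟩
  obtain ⟨n, hn⟩ := dot_char_nat (char_res (K := H) le_top (irr_char iB)) (irr_char ie)
  have : dot H (res H A + r) e = dot H (e + res H (-B)) e := dot_congr (fun x hx => by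
    have := R1 hx
    simp only [cf1_top, Pi.add_apply, Pi.sub_apply, cf1_apply_of_mem hx] at this
    simp only [Pi.add_apply, res_apply_of_mem _ hx, Pi.neg_apply]
    linear_combination this) fun _ _ => rfl
  rw [dot_add_left, dot_add_left, h, hn, dot_eq_zero_symm er, dot_irr_self ie] at this
  exact Nat.cast_add_one_ne_zero n (by linear_combination -this)

end Core

section Chars

variable {Q : Type*} [Group Q] [Fintype Q]

/-- a linear character given by an additive function to `ℤ/3` -/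
theorem exists_lin (W : Subgroup Q) (f : Q → ZMod 3) (hf : ∀ a ∈ W, ∀ b ∈ W, f (a * b) = f a + f b) :
    ∃ φ, IsLin W φ ∧ ∀ x ∈ W, φ x = ZMod.toCircle (f x) :=
  ⟨_, linChar_lin (W := W) (MonoidHom.mk' (fun x => Circle.toUnits (ZMod.toCircle (f x))) fun a b => by
    rw [← map_mul, ← AddChar.map_add_eq_mul, ← hf a a.2 b b.2]; rfl), fun x hx => linChar_apply_of_mem _ hx⟩

theorem tc_inj {a b : ZMod 3} (h : (ZMod.toCircle a : ℂ) = ZMod.toCircle b) : a = b :=
  ZMod.injective_toCircle (Circle.ext h)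

variable {σ : Q →* Equiv.Perm (Fin 3)} (hσ : Function.Surjective σ) {s : Q} (ss : s * s = 1) (s1 : σ s ≠ 1)
include hσ ss s1

theorem exists_two : ∃ r, IsDirr ⊤ r ∧ r 1 = 2 ∧ r s = 0 := by
  have σs : σ s * σ s = 1 := by rw [← map_mul, ss, map_one]
  let T := (alternatingGroup (Fin 3)).comap σ
  have mT : ∀ x, x ∈ T ↔ Equiv.Perm.sign (σ x) = 1 := fun x => Equiv.Perm.mem_alternatingGroup
  have nT : NormalIn T ⊤ := normalIn_top_iff.2 inferInstance
  obtain ⟨μ, hμ, v⟩ := exists_lin T (fun x => σ x 0) fun a ha b hb => by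
    rw [map_mul]
    exact (by decide : ∀ a b : Equiv.Perm (Fin 3), Equiv.Perm.sign a = 1 → Equiv.Perm.sign b = 1 →
      (a * b) 0 = a 0 + b 0) _ _ ((mT a).1 ha) ((mT b).1 hb)
  refine ⟨_, dirr_of_irr (ind_irr_of_inertia_le nT hμ.1 fun g hg => by_contra fun gT => ?_), ?_,
    ind_normal_supp nT.2 _ _ fun e => ?_⟩
  · obtain ⟨x, hx⟩ := hσ (finRotate 3)
    have xT : x ∈ T := (mT x).2 (by rw [hx]; decide)
    have := congrFun (mem_inertia.1 hg).2 x
    rw [cfConjg_apply, v _ xT, v _ (conj_mem_of_norm nT.2 (mem_top g) xT)] at this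
    have := tc_inj this
    simp only [map_mul, map_inv, hx] at this
    exact (by decide : ∀ g : Equiv.Perm (Fin 3), Equiv.Perm.sign g ≠ 1 → (g * finRotate 3 * g⁻¹) 0 ≠ finRotate 3 0)
      _ (fun e => gT ((mT g).2 e)) this
  · rw [ind_one le_top, hμ.2, relIndex_top_right, index_comap_of_surjective _ hσ, alternatingGroup.index_eq_two]
    norm_num
  · exact (by decide : ∀ g : Equiv.Perm (Fin 3), g * g = 1 → g ≠ 1 → Equiv.Perm.sign g ≠ 1) _ σs s1 ((mT s).1 e)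

theorem exists_three (ν : Q → ZMod 3) (νm : ∀ a b, σ a = 1 → σ b = 1 → ν (a * b) = ν a + ν b)
    (νs : ∀ j, σ j = 1 → ν (s * j * s⁻¹) = ν j) (νu : ∃ u j, σ j = 1 ∧ ν (u * j * u⁻¹) ≠ ν j) :
    ∃ c, IsDirr ⊤ c ∧ c 1 = 3 ∧ c s = 1 := by
  have σs : σ s * σ s = 1 := by rw [← map_mul, ss, map_one]
  have si : s⁻¹ = s := inv_eq_of_mul_eq_one_right ss
  let B := (zpowers (σ s)).comap σ
  have mB : ∀ x, x ∈ B ↔ σ x = 1 ∨ σ x = σ s := fun x => H42.mem_zpowers_of_mul_self σs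
  have iB : B.index = 3 := by
    have h := (zpowers (σ s)).card_mul_index
    haveI : Fact (Nat.Prime 2) := ⟨Nat.prime_two⟩
    rw [Nat.card_zpowers, orderOf_eq_prime (p := 2) (by rw [pow_two, σs]) s1, Nat.card_perm, Nat.card_fin] at h
    rw [index_comap_of_surjective _ hσ]
    simp only [Nat.factorial] at h
    omega
  have ν1 : ν 1 = 0 := by simpa using νm 1 1 (map_one _) (map_one _)
  obtain ⟨l, hl, v⟩ := exists_lin B (fun x => if σ x = 1 then ν x else ν (x * s)) fun a ha b hb => by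
    have k : ∀ x, σ x = σ s → σ (x * s) = 1 := fun x e => by rw [map_mul, e, σs]
    rcases (mB a).1 ha with ea | ea <;> rcases (mB b).1 hb with eb | eb
    · simp only [map_mul σ a b, ea, eb, mul_one, if_true, νm a b ea eb]
    · simp only [map_mul σ a b, ea, eb, one_mul, if_true, s1, if_false, mul_assoc, νm a _ ea (k b eb)]
    · simp only [map_mul σ a b, ea, eb, mul_one, if_true, s1, if_false]
      rw [← νs b eb, ← νm _ _ (k a ea) (by simp [eb]), si]
      congr 1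
      calc a * b * s = a * (s * s) * b * s := by rw [ss, mul_one]
        _ = _ := by group
    · simp only [map_mul σ a b, ea, eb, σs, if_true, s1, if_false]
      rw [← νs _ (k b eb), ← νm _ _ (k a ea) (by rw [map_mul, map_mul, k b eb]; simp)]
      congr 1
      calc a * b = a * (s * s) * b := by rw [ss, mul_one]
        _ = _ := by group
  have JB : σ.ker ≤ B := fun x hx => (mB x).2 (.inl hx)
  have nJ : NormalIn σ.ker ⊤ := normalIn_top_iff.2 inferInstance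
  have lJ := lin_res JB hl
  have iI : (inertia ⊤ (res σ.ker l)).index = 3 := by
    refine ((Nat.dvd_prime Nat.prime_three).1 ((index_dvd_of_le fun b hb => mem_inertia.2 ⟨mem_top b,
      cfConjg_res_CF (le_top.trans nJ.2) (irr_CF hl.1) hb⟩).trans iB.dvd)).resolve_left fun e => ?_
    obtain ⟨u, j, hj, n⟩ := νu
    have hj' : σ (u * j * u⁻¹) = 1 := by simp [hj]
    have := congrFun (mem_inertia.1 ((index_eq_one.1 e).ge (mem_top u))).2 j
    rw [cfConjg_apply, res_apply_of_mem _ (show _ ∈ σ.ker from hj'), res_apply_of_mem _ (show _ ∈ σ.ker from hj),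
      v _ (JB hj), v _ (JB hj')] at this
    exact n (by simpa only [hj, hj', if_true] using tc_inj this)
  have c1 : ind ⊤ B l 1 = 3 := by rw [ind_one le_top, hl.2, relIndex_top_right, iB]; norm_num
  obtain ⟨χ, hχ, hd⟩ := exists_irr_over (le_top : B ≤ ⊤) hl.1
  obtain ⟨n, hn⟩ := dot_char_nat (char_res JB (char_sub_constt (char_res le_top (irr_char hχ)) hl.1
    (by rwa [dot_res_left]))) (irr_char lJ.1)
  rw [map_sub, dot_sub_left, dot_irr_self lJ.1, res_res JB, dot_res_left, sub_eq_iff_eq_add] at hn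
  have dg := clifford_degree nJ hχ lJ.1 (by rw [hn]; exact Nat.cast_add_one_ne_zero n)
  rw [hn, relIndex_top_right, iI, lJ.2] at dg
  refine ⟨ind ⊤ B l, dirr_of_irr ?_, c1, ?_⟩
  · rwa [char_eq_of_constt_of_one_le (ind_char le_top (irr_char hl.1)) hχ (by
      rw [dot_ind_left le_top _ (irr_CF hχ)]; exact fun e => hd (dot_eq_zero_symm e)) (by
        rw [c1, dg]; simp)]
  · have sB : s ∈ B := (mB s).2 (.inr rfl)
    rw [ind_apply' _ (mem_top s), res_eq_self (irr_supp hl.1), ← sum_fin_subset (A := (B : Set Q)) (by simp)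
      fun x _ hx => irr_supp hl.1 _ fun e => hx ((mB x).2 ((by decide : ∀ t g : Equiv.Perm (Fin 3), t * t = 1 →
        t ≠ 1 → (g * t * g⁻¹ = 1 ∨ g * t * g⁻¹ = t) → g = 1 ∨ g = t) _ _ σs s1 (by simpa using (mB _).1 e))),
      Finset.sum_congr rfl fun x hx => CF_conj (irr_CF hl.1) (mem_fin.1 hx) s, Finset.sum_const,
      card_fin_subgroup, nsmul_eq_mul, inv_mul_cancel_left₀ (card_ne_zero' B), v s sB]
    simp [s1, ss, ν1]

end Chars

end Cfsg.Agent.L43.TA
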